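import Cfsg.Agent.H9.CKASpec
import Cfsg.Agent.H21.F4Tw

/-! CKS (S2193), slot CF4: condition (C) for the large Ree groups. -/

set_option autoImplicit false
set_option linter.unusedSectionVars false

namespace H37.CK

open H21 H64 H68 H65 Subgroup Cfsg.Lie
open H63 (RS Rt)
open scoped commutatorElement

universe u

/-- Downward induction on the layers. -/
theorem down {D : ChevalleyDatum} [RS D] {K : Type*} [Field K] {G : Type u} [Group G]
    {M : H68.CM D K G} {Ω : Type} {τ : Tw (rd D) Ω} {S : SM M τ}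
    {hn : ∀ o, ∃ y ∈ VJ M.T (τ.J {o}), y ≠ 1 ∧ S.σ y = y} {L : Subgroup G} {q : ℤ} {rk rep : ℕ → ℕ}
    {n : ℕ} (W : TwOK S hn L q rk rep n) {k₀ : ℕ} (h0 : k₀ ≤ n)
    (h1 : ∀ k < n, ∀ s : K, s ≠ 0 → ∃ c, M.tor c ∈ L ∧ (CM.chi c (rep k) : K) = s)
    (h2 : ∀ k < n, k₀ ≤ k → ∃ y ∈ ⁅M.T.U ⊓ L, M.T.U ⊓ L⁆, y ∈ AK M rk k ∧ co M rk (rep k) y ≠ 0) :
    AK M rk k₀ ⊓ L ≤ ⁅M.T.U ⊓ L, M.T.U ⊓ L⁆ := by
  have le : ⁅M.T.U ⊓ L, M.T.U ⊓ L⁆ ≤ L := commutator_le.2 fun _ ha _ hb =>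
    mul_mem (mul_mem (mul_mem ha.2 hb.2) (inv_mem ha.2)) (inv_mem hb.2)
  induction h0 using Nat.decreasingInduction with
  | self =>
    intro u hu
    have : (⟨u, hu.2⟩ : L) ∈ (AK M rk n).subgroupOf L := hu.1
    rw [tw_bot W.hl L] at this
    rw [show u = 1 from congrArg Subtype.val (mem_bot.1 this)]
    exact one_mem _
  | of_succ k hk ih =>
    replace ih := ih fun j hj e => h2 j hj (by omega)
    intro u hu
    have c := W.coord hk
    by_cases e : co M rk (rep k) u = 0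
    · exact ih ⟨(c.ker ⟨u, hu.2⟩ hu.1).1 e, hu.2⟩
    obtain ⟨y, y1, y2, y3⟩ := h2 k hk le_rfl
    obtain ⟨a, a1, a2⟩ := h1 k hk _ (div_ne_zero e y3)
    have m : (M.T.U ⊓ L).map (MulAut.conj (M.tor a)).toMonoidHom ≤ M.T.U ⊓ L := by
      rintro _ ⟨g, hg, rfl⟩
      exact ⟨AK_zero M rk ▸ M.T.h_conj_gen (M.tor_mem a) (AK_zero M rk ▸ hg.1 : g ∈ AK M rk 0),
        L.mul_mem (L.mul_mem a1 hg.2) (L.inv_mem a1)⟩
    have y4 : M.tor a * y * (M.tor a)⁻¹ ∈ ⁅M.T.U ⊓ L, M.T.U ⊓ L⁆ :=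
      commutator_mono m m (by rw [← map_commutator]; exact ⟨y, y1, rfl⟩)
    have y5 := (c.mem_iff (y := ⟨u, hu.2⟩) (c.norm ⟨_, a1⟩ (M.tor_mem a) ⟨y, le y1⟩ y2) hu.1).2 (by
      rw [c.conj ⟨_, a1⟩ (M.tor_mem a) ⟨y, le y1⟩ y2]
      simp only [chiG_tor M (W.hl.1 k hk).1.1, a2, smul_eq_mul]
      exact div_mul_cancel₀ _ y3)
    exact (mul_mem_cancel_left (inv_mem y4)).1 (ih ⟨y5, L.mul_mem (L.inv_mem (le y4)) hu.2⟩)

/-- a word with all parameters `1` -/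
def w1 (l : List ℕ) : PW := l.map fun r => (r, [(1, [])])

def c2 : List ℕ := [34, 26, 35, 31, 37, 32, 42, 38, 43, 46, 47]
def c4 : List ℕ := [35, 31, 29, 41, 37, 32, 36, 42, 38, 43, 40, 47]

set_option maxHeartbeats 1000000 in
theorem jobCF4 : H9.CK.JobCF4 := by
  intro K _ _ m hm hK
  obtain ⟨hn, W⟩ := twOK_F4 hK
  have := charP_two hK
  refine ⟨(isTw_F4 hK).lieS 2, H9.CK.cc_tw (isTw_F4 hK) (le_trans (inf_le_inf_right _
    (gen_mono _ fun r hr => ?_)) (down W (k₀ := 2) (by decide) (fun k hk s hs => ?_) ?_))⟩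
  · exact ⟨hr.1, (by decide +kernel : ∀ r : Rt chevF4, chevF4.IsPosRoot r →
      (∀ i, r ≠ (rd chevF4).sim i) → 2 ≤ rkF4 r) r (rd_pos.1 hr.1) hr.2⟩
  · obtain ⟨b, rfl⟩ := FiniteField.isSquare_of_char_two (ringChar.eq K 2) s
    obtain ⟨d, -, h⟩ := sepF4_spec.2 k hk
    obtain ⟨c, hc, e⟩ := exists_torF4 hK d (Units.mk0 b (left_ne_zero_of_mul hs))
    exact ⟨c, hc, by simp [e, h, zpow_ofNat, pow_two]⟩
  set M := mat chevF4 K with hM
  set V := M.T.U ⊓ twistedF4 K (2 ^ m) with hV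
  have le : ⁅V, V⁆ ≤ V := commutator_le.2 fun _ ha _ hb =>
    mul_mem (mul_mem (mul_mem ha hb) (inv_mem ha)) (inv_mem hb)
  have hx : ∀ w : List (ℕ × K), (∀ r ∈ w.map Prod.fst, chevF4.IsPosRoot r) →
      M.wd w ∈ twistedF4 K (2 ^ m) → M.wd w ∈ V := fun w h h' =>
    ⟨AK_le_U _ (W.co_wd (k := 0) (by decide) fun r hr => ⟨h r hr, Nat.zero_le _⟩).1, h'⟩
  obtain ⟨t, ht⟩ := exists_phi_ne hK hm
  have t1 := y1_mem hK t
  have t3 := y3_mem hK t
  have t0 := y0_mem hK (t ^ (2 ^ m * 2)) 0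
  rw [b2ClassWord, pow_succ, pow_theta2' hK] at t0
  replace ht : t + t ^ (2 ^ m * 2) ≠ 0 := fun h => ht (CharTwo.add_eq_zero.1 h).symm
  generalize t ^ (2 ^ m * 2) = T at t0 t1 t3 ht
  have cm : ∀ a b c : PW, M.wd (evPW [t, T] a) ∈ V → M.wd (evPW [t, T] b) ∈ V →
      chkWords chevF4 id 2 24 16777215 rowsF4 (flatPW (a ++ b)) (flatPW (c ++ (b ++ a))) = true →
      M.wd (evPW [t, T] c) ∈ ⁅V, V⁆ := fun a b c ha hb h =>
    eng_comm packedF4 W.hq [t, T] (by simp) a b c h ▸ commutator_mem_commutator ha hb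
  have fin : ∀ k < 12, ∀ c : PW, M.wd (evPW [t, T] c) ∈ ⁅V, V⁆ →
      (∀ r ∈ c.map Prod.fst, chevF4.IsPosRoot r ∧ k ≤ rkF4 r) →
      ((evPW [t, T] c).map fun p => if p.1 = repF4 k then p.2 else 0).sum ≠ 0 →
      ∃ y ∈ ⁅V, V⁆, y ∈ AK M rkF4 k ∧ co M rkF4 (repF4 k) y ≠ 0 := fun k hk c h1 h2 h3 => by
    have := W.co_wd hk (w := evPW [t, T] c) (by simpa [hM, evPW] using h2)
    exact ⟨_, h1, this.1, this.2 ▸ h3⟩
  have hA : M.wd (evPW [t, T] (w1 [27, 25, 28])) ∈ V := hx _ (by simp [evPW, w1]; decide)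
    (by simpa [hM, evPW, w1, b2ClassWord] using y0_mem hK 1 0)
  have hB : M.wd (evPW [t, T] (w1 [33, 24])) ∈ V := hx _ (by simp [evPW, w1]; decide)
    (by simpa [hM, evPW, w1] using y1_mem hK 1)
  have hC : M.wd (evPW [t, T] (w1 [28, 30])) ∈ V := hx _ (by simp [evPW, w1]; decide)
    (by simpa [hM, evPW, w1] using y3_mem hK 1)
  have m2 := cm _ _ (w1 c2) hA hB (by decide +kernel)
  have m4 := cm _ _ (w1 c4) hB hC (by decide +kernel)
  have m9 := cm _ _ (w1 [39, 45, 44, 47]) hB (le m4) (by decide +kernel)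
  intro k hk h2
  interval_cases k
  · exact fin 2 hk _ m2 (by decide +kernel) (by simp [evPW, w1, c2, repF4])
  · exact fin 3 hk _ (cm [(27, [(1, [0])]), (25, [(1, [1])]), (28, [(1, [0, 1])])] _
      [(28, [(1, [0]), (1, [1])]), (30, [(1, [0, 0]), (1, [1])])]
      (hx _ (by simp [evPW]; decide) (by simpa [hM, evPW, mul_comm] using t0)) hA (by decide +kernel))
      (by decide +kernel) (by simpa [hM, evPW, repF4] using ht)
  · exact fin 4 hk _ m4 (by decide +kernel) (by simp [evPW, w1, c4, repF4])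
  · refine fin 5 hk _ (eng_comm2 packedF4 W.hq [t, T] (by simp)
      [(33, [(1, [0])]), (24, [(1, [1])])] (w1 [28, 30])
      [(35, [(1, [0])]), (31, [(1, [1])]), (29, [(1, [1])]), (41, [(1, [0, 0])]), (37, [(1, [0])]),
        (32, [(1, [1])]), (36, [(1, [0, 1])]), (42, [(1, [0, 0, 1])]), (38, [(1, [0, 1])]),
        (43, [(1, [0, 0, 1])]), (40, [(1, [0, 1])]), (47, [(1, [0, 0, 1, 1])])]
      (w1 [33, 24]) [(28, [(1, [0])]), (30, [(1, [1])])]
      [(29, [(1, [0]), (1, [1])]), (41, [(1, [0, 0]), (1, [1])]), (37, [(1, [0]), (1, [1])]),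
        (32, [(1, [0, 0]), (1, [1])]), (36, [(1, [0]), (1, [0, 1])]), (42, [(1, [0, 0, 1]), (1, [1])]),
        (38, [(1, [0, 1]), (1, [1])]), (43, [(1, [0, 0]), (1, [0, 0, 1])]), (39, [(1, [0, 1])]),
        (45, [(1, [0, 0, 1])]), (40, [(1, [0, 0]), (1, [0, 1])]), (46, [(1, [0, 0, 1]), (1, [1, 1])]),
        (44, [(1, [0, 0, 0]), (1, [0, 0, 1]), (1, [0, 1, 1])]),
        (47, [(1, [0, 0, 0, 0]), (1, [0, 0, 0, 0, 1]), (1, [0, 0, 1])])]
      (by decide +kernel) (by decide +kernel) ▸ mul_mem (commutator_mem_commutator ?_ hC)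
        (commutator_mem_commutator hB ?_)) (by decide +kernel) (by simpa [hM, evPW, repF4] using ht)
    · exact hx _ (by simp [evPW]; decide) (by simpa [hM, evPW] using t1)
    · exact hx _ (by simp [evPW]; decide) (by simpa [hM, evPW] using t3)
  · exact fin 6 hk _ (cm _ _ (w1 [37, 32, 38, 43, 40, 46]) hA (le m4) (by decide +kernel))
      (by decide +kernel) (by simp [evPW, w1, repF4])
  · exact fin 7 hk _ (cm _ _ (w1 [36, 42, 39, 45, 44, 47]) hB (le m2) (by decide +kernel))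
      (by decide +kernel) (by simp [evPW, w1, repF4])
  · exact fin 8 hk _ (cm _ _ (w1 [38, 43]) (le m2) (le m4) (by decide +kernel))
      (by decide +kernel) (by simp [evPW, w1, repF4])
  · exact fin 9 hk _ m9 (by decide +kernel) (by simp [evPW, w1, repF4])
  · exact fin 10 hk _ (cm _ _ (w1 [40, 46]) hA (le m9) (by decide +kernel))
      (by decide +kernel) (by simp [evPW, w1, repF4])
  · exact fin 11 hk _ (cm _ _ (w1 [44, 47]) (le m2) (le m9) (by decide +kernel))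
      (by decide +kernel) (by simp [evPW, w1, repF4])

end H37.CK
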