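import Cfsg.Agent.H48.DP3Kit

/-! Tower DP3, job Geo: the geometry of a good triple. -/

set_option autoImplicit false
set_option linter.unusedSectionVars false

namespace H37.DP

open Subgroup Cfsg H98 H97 H48.DP
open scoped commutatorElement

universe u

local instance : Fact (Nat.Prime 2) := ⟨Nat.prime_two⟩

variable {G : Type u} [Group G] [Finite G] {z v : G}

/-- The four-group generated by two commuting involutions. -/
def K4 (zz : z * z = 1) (vv : v * v = 1) (zv : z * v = v * z) : Subgroup G where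
  carrier := {d | d = 1 ∨ d = z ∨ d = v ∨ d = z * v}
  one_mem' := .inl rfl
  mul_mem' := by
    have a : ∀ x, z * (z * x) = x := fun x => by rw [← mul_assoc, zz, one_mul]
    have b : ∀ x, v * (z * x) = z * (v * x) := fun x => by rw [← mul_assoc, ← zv, mul_assoc]
    rintro x y (h | h | h | h) (k | k | k | k) <;> simp [h, k, mul_assoc, a, b, zz, vv, ← zv]
  inv_mem' := by
    rintro x (h | h | h | h) <;>
      simp [h, inv_eq_of_mul_eq_one_right zz, inv_eq_of_mul_eq_one_right vv, ← zv]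

theorem mem_zp (zz : z * z = 1) {x : G} (h : x ∈ zpowers z) : x = 1 ∨ x = z := by
  obtain ⟨i, rfl⟩ := mem_zpowers_iff.1 h
  obtain ⟨i, rfl | rfl⟩ := i.even_or_odd' <;> simp [zpow_add, zpow_mul, pow_two, zz]

theorem centralizer_zpowers (x : G) : Ce (zpowers x) = C1 x := by
  rw [zpowers_eq_closure, Ce, centralizer_closure]

theorem odd_pow {T : Subgroup G} (h : IsSyl 2 T ⊤) {a : G} (ha : a ∈ No T) :
    ∃ i, a * (a * a) ^ i ∈ T := by
  obtain ⟨k, m, ⟨i, rfl⟩, e⟩ := Nat.exists_eq_two_pow_mul_odd (orderOf_pos a).ne'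
  refine ⟨i, ?_⟩
  rw [← pow_two, ← pow_mul, ← pow_succ']
  exact h.le_of_le_normalizer' (isPGroup_zpowers (k := k) (by
    rw [← pow_mul, mul_comm, ← e, pow_orderOf_eq_one])) le_top (zpowers_le.2 (pow_mem ha _))
    (mem_zpowers _)

theorem jobGeo : JobGeo.{u} := fun jP G _ _ T P₁ P₂ P₃ z y hA hS h => by
  have n13 : P₁ ≠ P₃ := fun e => h.nc3 (e ▸ h.c1)
  have n23 : P₂ ≠ P₃ := fun e => h.nc3 (e ▸ h.c2)
  have lt := hA.lt h.s1 h.s2 h.ne
  have zq : ∀ {P R}, S3 T P → S3 T R → P ≠ R → z ∈ Zq (P ⊔ R) := fun a b c =>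
    oZ_le_Zq (hA.charP a b c) (hA.lt a b c).le (hA.lt a b c).o2_le h.zmem
  have ln : ∀ {P}, S3 T P → P ≠ P₃ → P ≤ C1 z → Ln P (zpowers z) (y * z * y⁻¹) := fun a b c =>
    (jP G T _ P₃ _ z y (hA.lt a h.s3 b) (zq a h.s3 b) c h.nc3 h.ymem h.yord h.ln).1
  have z3 := oZ_le_Zq (hA.charS h.s3 h.s1 n13.symm) h.s3.le h.s3.o2_le h.zmem
  have v3 := conj_mem_of_mem_normalizer (le_No_Zq P₃ h.ymem) z3
  obtain ⟨zT, zc, zz⟩ := mem_oZ.1 h.zmem
  rw [pow_two] at zz
  have tz : ∀ t ∈ T, t * z * t⁻¹ = z := fun t ht => mul_inv_eq_iff_eq_mul.2 (zc t ht)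
  have Tz : T ≤ C1 z := fun t ht => mem_C1.2 (zc t ht).symm
  have yT := h.s3.not_mem h.yord
  have l := h.ln
  have yv : y ^ 2 * z * (y ^ 2)⁻¹ = y * (y * z * y⁻¹) * y⁻¹ := by rw [pow_two]; group
  have tv : ∀ t ∈ T, t * (y * z * y⁻¹) * t⁻¹ = y * z * y⁻¹ ∨
      t * (y * z * y⁻¹) * t⁻¹ = y ^ 2 * z * (y ^ 2)⁻¹ := fun t ht => by
    rcases h.s3.cover h.ymem h.yord (mul_mem (h.s3.le ht) h.ymem) with k | k | k
    · exact (yT ((mul_mem_cancel_left ht).1 k)).elim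
    · left; conv_rhs => rw [← tz _ k]
      group
    · right; conv_rhs => rw [← tz _ k]
      group
  have vv : y * z * y⁻¹ * (y * z * y⁻¹) = 1 := by rw [conj_mul, zz]; simp
  have vne : y * z * y⁻¹ ∉ zpowers z := fun k => (mem_zp zz k).elim (by simpa using h.zne) fun e =>
    h.nc3 (h.s3.le_of Tz (mem_C1.2 (mul_inv_eq_iff_eq_mul.1 e).symm) h.ymem yT)
  have ln1 := ln h.s1 n13 h.c1
  have ln2 := ln h.s2 n23 h.c2
  have cj3 : ∀ a ∈ C1 z, a * (y * z * y⁻¹) * a⁻¹ = a * y * a⁻¹ * z * (a * y * a⁻¹)⁻¹ := fun a ha => by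
    conv_rhs => rw [← mul_inv_eq_iff_eq_mul.2 (mem_C1.1 ha).symm]
    group
  generalize hv : y * z * y⁻¹ = v at *
  have vT := h.s3.o2_le (Zq_le _ v3)
  have zv : z * v = v * z := (zc v vT).symm
  have iz := inv_eq_of_mul_eq_one_right zz
  have iv := inv_eq_of_mul_eq_one_right vv
  rw [eq_inv_of_mul_eq_one_right l, mul_inv_rev, iz, iv, ← zv] at yv tv
  set D := K4 zz vv zv
  have mD : ∀ d, d ∈ D ↔ d = 1 ∨ d = z ∨ d = v ∨ d = z * v := fun _ => Iff.rfl
  have zD : z ∈ D := .inr (.inl rfl)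
  have vD : v ∈ D := .inr (.inr (.inl rfl))
  have Dle : ∀ {K : Subgroup G}, z ∈ K → v ∈ K → D ≤ K := fun a b d k => by
    rcases k with k | k | k | k <;> rw [k]
    exacts [one_mem _, a, b, mul_mem a b]
  have nD' : ∀ {g}, g * z * g⁻¹ ∈ D → g * v * g⁻¹ ∈ D → g ∈ No D := fun a b =>
    mem_normalizer_of_cj_le (cj_le_iff.2 (Dle (mem_cj.2 (by simpa using a)) (mem_cj.2 (by simpa using b))))
  have nD : P₃ ≤ No D := h.s3.le_of (fun t ht => nD' ((tz t ht).symm ▸ zD) ((tv t ht).elim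
    (fun e => e.symm ▸ vD) fun e => e.symm ▸ mul_mem zD vD)) (nD' (hv ▸ vD) (yv ▸ mul_mem zD vD))
    h.ymem yT
  have vT' : ∀ t ∈ T, ⁅v, t⁆ ∈ zpowers z := fun t ht => by
    rw [show ⁅v, t⁆ = v * (t * v * t⁻¹)⁻¹ by rw [commutatorElement_def]; group]
    rcases tv t ht with e | e <;> rw [e]
    · simp
    · rw [mul_inv_rev, mul_inv_cancel_left]; exact inv_mem (mem_zpowers z)
  have qD : O2 P₃ ≤ Ce D := le_centralizer_iff.1 (Dle (oZ_le_centralizer _ z3) (oZ_le_centralizer _ v3))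
  have cD : T ⊓ Ce D = O2 P₃ := le_antisymm (fun t ht => by
    by_contra k
    refine h.nc3 fun g hg => mem_C1.2 (h.s3.le_of_norm (fun s hs => ?_)
      (le_normalizer_centralizer nD) hg z zD)
    by_cases e : s ∈ O2 P₃
    exacts [qD e, (mul_mem_cancel_right (mem_inf.1 ht).2).1 (qD (h.s3.mul_mem hs e ht.1 k))])
    (le_inf h.s3.o2_le qD)
  set L := P₁ ⊔ P₂
  have cz : L ≤ C1 z := sup_le h.c1 h.c2
  have nz : C1 z ≤ No (zpowers z) := (centralizer_zpowers z).ge.trans (centralizer_le_normalizer _)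
  have nK := le_normalizer_stab (le_normalizer_pCoreOf_of_le (p := 2) (le_refl L)) (cz.trans nz)
  have DK : D ≤ stab (O2 L) (zpowers z) := Dle ⟨nz (Tz zT), fun c hc => by
    rw [commutatorElement_def, tz c (lt.o2_le hc), mul_inv_cancel]; exact one_mem _⟩
    ⟨nz (Tz vT), fun c hc => by
      rw [← commutatorElement_inv]; exact inv_mem (vT' c (lt.o2_le hc))⟩
  have vQ : v ∈ O2 L := by
    by_contra k
    obtain ⟨x, hx, ox⟩ := h.s1.exists_three
    exact not_mem_of_three (isPGroup_pCoreOf _) ox (hA.charP h.s1 h.s2 h.ne ⟨mem_sup_left hx,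
      cent_of_chain (isPGroup_zpowers (k := 1) ((pow_two z).trans zz)) ox
        (lt.three_mem nK (DK vD) (lt.le vT) k (mem_sup_left hx) ox).2
        ((centralizer_zpowers z).ge (h.c1 hx))⟩)
  have DQ : D ≤ O2 L := Dle (Zq_le _ (zq h.s1 h.s2 h.ne)) vQ
  have UQ := ncl_le DQ (le_normalizer_pCoreOf_of_le (p := 2) (le_refl L))
  have UK := ncl_le DK nK
  obtain ⟨t, ht, t3⟩ := h.s3.exists_not_mem
  refine ⟨D, ncl L D, lt, h.s3, zz, vv, zv, h.zne, vne, mD, nD, cD,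
    le_inf DQ (Dle (Zq_le _ z3) (Zq_le _ v3)), rfl, UQ, fun q hq u hu => (UK hu).2 q hq, ?_, cz,
    fun m hm => ?_, vT', ln1, ln2, ⟨y * t, mul_mem h.ymem (h.s3.le ht), ?_, ?_⟩, fun K a b c =>
      hA.toAmb.three_bot h.s1 h.s2 h.s3 h.ne n13 n23 a (le_sup_left.trans b) (le_sup_right.trans b) c⟩
  · let K : Subgroup G :=
      { carrier := {u | u ∈ ncl L D ∧ u * u ∈ zpowers z}
        one_mem' := ⟨one_mem _, by simp⟩
        mul_mem' := fun {a b} ha hb => ⟨mul_mem ha.1 hb.1, by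
          rw [show a * b * (a * b) = a * a * ⁅a⁻¹, b⁆ * (b * b) by rw [commutatorElement_def]; group]
          exact mul_mem (mul_mem ha.2 ((UK hb.1).2 _ (inv_mem (UQ ha.1)))) hb.2⟩
        inv_mem' := fun {a} ha => ⟨inv_mem ha.1, by rw [← mul_inv_rev]; exact inv_mem ha.2⟩ }
    refine fun u hu => (ncl_le_iff (N := K).2 (fun g hg w hw => ⟨cj_le_ncl hg hw, ?_⟩) hu).2
    obtain ⟨d, hd, rfl⟩ := hw
    rw [← map_mul, show d * d = 1 by
      rcases hd with e | e | e | e <;> rw [e]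
      exacts [mul_one 1, zz, vv, by rw [mul_assoc, ← mul_assoc v, ← zv, mul_assoc, vv, mul_one, zz]],
      map_one]
    exact one_mem _
  · have mL := (hA.toAmb.of_two h.s1 h.s2 h.ne h.c1 h.c2 (o2_C1_ne_bot h.zne zz)).2.1
    obtain ⟨a, ha, l, hl, rfl⟩ := lt.isSyl.frattini_mem (mL hm)
    have az := (mul_mem_cancel_right (cz hl)).1 hm
    have s : ∀ a ∈ No T, S3 T (cj a P₃) := fun a ha => cj_eq_self ha ▸ h.s3.cj a
    have c : ∀ a ∈ C1 z, ¬ cj a P₃ ≤ Ce (oZ 2 T) := fun a ha k => h.nc3 fun g hg => by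
      simpa [mul_assoc] using mul_mem (mul_mem (inv_mem ha)
        (mem_C1.2 (k (conj_mem_cj hg) z h.zmem))) ha
    have a3 : a ∈ No P₃ := by
      by_contra k
      rcases hS _ _ _ h.s3 (s a ha) (s _ (mul_mem ha ha)) (fun e => k (cj_eq_self_iff.1 e.symm))
        (fun e => by
          obtain ⟨i, m⟩ := odd_pow hA.syl ha
          exact k ((mul_mem_cancel_right (pow_mem (cj_eq_self_iff.1 e.symm) i)).1
            (le_normalizer (h.s3.le m))))
        (fun e => k (cj_eq_self_iff.1 (cj_inj.1 (e.trans (cj_cj a a _).symm)).symm)) with e | e | e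
      exacts [c 1 (one_mem _) (by rwa [cj_one]), c a az e, c _ (mul_mem az az) e]
    refine mul_mem (le_normalizer_ncl_of (zpowers_le.2 (mL az)) (zpowers_le.2 (nD' ?_ ?_))
      (mem_zpowers a)) (le_normalizer_ncl L D hl)
    · rwa [← mem_C1.1 az, mul_inv_cancel_right]
    · rw [cj3 a az]
      exact conj_mem_of_mem_normalizer (nD (conj_mem_of_mem_normalizer a3 h.ymem)) zD
  · rw [← hv]
    conv_rhs => rw [← tz t ht]
    group
  · have e := (tv t ht).resolve_left fun e => t3 (cD.le ⟨ht, le_centralizer_iff.1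
      (Dle (K := Ce (zpowers t)) ((centralizer_zpowers t).ge (mem_C1.2 (zc t ht)))
        ((centralizer_zpowers t).ge (mem_C1.2 (mul_inv_eq_iff_eq_mul.1 e)))) (mem_zpowers t)⟩)
    rw [show y * t * v * (y * t)⁻¹ = y * (t * v * t⁻¹) * y⁻¹ by group, e, ← conj_mul, hv, ← yv, zv,
      ← mul_assoc, vv, one_mul]

end H37.DP
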