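import Cfsg.Agent.H48.DP1Spec

/-! S3275, chapter (1): the action of `Q` on `Y` (slot `UQ2`). -/

set_option autoImplicit false
set_option linter.unusedSectionVars false

namespace H37.DPQ2

open Subgroup H98 H48.DP

abbrev M := ZMod 4 × ZMod 4

variable {G : Type*} [Group G]

theorem pw_add {g : G} (h : g ^ 4 = 1) (i j : ZMod 4) :
    g ^ (i + j).val = g ^ i.val * g ^ j.val := by
  rw [ZMod.val_add, ← pow_eq_pow_mod _ h, pow_add]

/-- `a ^ i * b ^ j` -/
def hh (a b : G) (u : M) : G := a ^ u.1.val * b ^ u.2.val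

/-- the endomorphism of `M` with the given values on the basis -/
def lin (p o u : M) : M := u.1 • p + u.2 • o

/-- `g` acts on `H` by `lin p o` -/
def Acts (a b g : G) (p o : M) : Prop := g * a * g⁻¹ = hh a b p ∧ g * b * g⁻¹ = hh a b o

/-- the data of an element of `Q` -/
structure Dat (a b t q : G) (v p o : M) : Prop where
  mem : q ∈ Qs a b t
  tt : q * t * q⁻¹ = hh a b v * t
  act : Acts a b q p o

variable {L : Subgroup G} {a b s x y r t : G}

theorem hh_zero : hh a b 0 = 1 := by simp [hh]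
theorem hh_a : hh a b (1, 0) = a := by change a ^ 1 * b ^ 0 = a; simp
theorem hh_b : hh a b (0, 1) = b := by change a ^ 0 * b ^ 1 = b; simp
theorem hh_A : hh a b (2, 0) = a ^ 2 := by change a ^ 2 * b ^ 0 = _; simp
theorem hh_B : hh a b (0, 2) = b ^ 2 := by change a ^ 0 * b ^ 2 = _; simp

theorem hh_mem_H (u : M) : hh a b u ∈ Hs a b :=
  mul_mem (pow_mem (subset_closure (by simp)) _) (pow_mem (subset_closure (by simp)) _)

theorem hh_mem_V {u : M} (h : u + u = 0) : hh a b u ∈ V0 a b := by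
  have hA : a ^ 2 ∈ V0 a b := subset_closure (by simp)
  have hB : b ^ 2 ∈ V0 a b := subset_closure (by simp)
  rcases (by revert u; decide : u = 0 ∨ u = (2, 0) ∨ u = (0, 2) ∨ u = (2, 2)) with rfl | rfl | rfl | rfl
  · rw [hh_zero]; exact one_mem _
  · rwa [hh_A]
  · rwa [hh_B]
  · exact mul_mem hA hB

theorem V_le_H : V0 a b ≤ Hs a b := (closure_le _).2 (by
  rintro _ (rfl | rfl)
  · exact hh_A (a := a) (b := b) ▸ hh_mem_H _
  · exact hh_B (a := a) (b := b) ▸ hh_mem_H _)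

theorem V_le_E : V0 a b ≤ Es a b t := closure_mono (by rintro _ (rfl | rfl) <;> simp)

section
variable (h : UQ1 L a b s x y r t)
include h

theorem hh_add (u w : M) : hh a b (u + w) = hh a b u * hh a b w := by
  rw [hh, hh, hh, Prod.fst_add, Prod.snd_add, pw_add h.a4, pw_add h.b4]
  exact ((show Commute a b from h.ab).pow_pow _ _).mul_mul_mul_comm _ _

theorem hh_comm (u w : M) : hh a b u * hh a b w = hh a b w * hh a b u := by
  rw [← hh_add h, ← hh_add h, add_comm]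

theorem hh_neg (u : M) : hh a b (-u) = (hh a b u)⁻¹ :=
  eq_inv_of_mul_eq_one_left (by rw [← hh_add h, neg_add_cancel, hh_zero])

theorem hh_nsmul (n : ℕ) (u : M) : hh a b (n • u) = hh a b u ^ n := by
  induction n with
  | zero => rw [zero_smul, hh_zero, pow_zero]
  | succ n ih => rw [succ_nsmul, hh_add h, ih, pow_succ]

theorem hh_smul (k : ZMod 4) (u : M) : hh a b (k • u) = hh a b u ^ k.val := by
  rw [← hh_nsmul h, ← Nat.cast_smul_eq_nsmul (ZMod 4), ZMod.natCast_zmod_val]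

theorem hh_inj {u w : M} (e : hh a b u = hh a b w) : u = w := by
  have e1 : hh a b (u - w) = 1 := by rw [sub_eq_add_neg, hh_add h, hh_neg h, e, mul_inv_cancel]
  have e2 := h.ind ((u - w).1.val : ℕ) ((u - w).2.val : ℕ) (by rw [zpow_natCast, zpow_natCast]; exact e1)
  have k : ∀ i : ZMod 4, (4 : ℤ) ∣ ((i.val : ℕ) : ℤ) → i = 0 := by decide
  exact sub_eq_zero.1 (Prod.ext (k _ e2.1) (k _ e2.2))

theorem hh_mem_L (u : M) : hh a b u ∈ L := mul_mem (pow_mem h.aL _) (pow_mem h.bL _)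

theorem of_mem_V {c : G} (hc : c ∈ V0 a b) : ∃ u, u + u = 0 ∧ c = hh a b u := by
  induction hc using closure_induction with
  | mem c hc =>
    rcases hc with rfl | rfl
    exacts [⟨(2, 0), by decide, hh_A.symm⟩, ⟨(0, 2), by decide, hh_B.symm⟩]
  | one => exact ⟨0, add_zero _, hh_zero.symm⟩
  | mul c d _ _ hc hd =>
    obtain ⟨u, h1, rfl⟩ := hc
    obtain ⟨w, h2, rfl⟩ := hd
    exact ⟨u + w, by rw [add_add_add_comm, h1, h2, add_zero], (hh_add h u w).symm⟩
  | inv c _ hc =>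
    obtain ⟨u, h1, rfl⟩ := hc
    exact ⟨-u, by rw [← neg_add, h1, neg_zero], (hh_neg h u).symm⟩

theorem r_comm {l : G} (hl : l ∈ L) : Commute l r := mem_centralizer_iff.1 h.rc l hl

theorem t_comm {l : G} (hl : l ∈ L) : Commute l t := by
  rcases h.tr with e | e <;> rw [e]
  exacts [r_comm h hl, (r_comm h hl).pow_right 2]

theorem tt : t * t = 1 := by rw [← sq, ← h.t2, pow_orderOf_eq_one]

theorem of_mem_Y {c : G} (hc : c ∈ Ys a b r) : ∃ (u : M) (k : ZMod 4), c = hh a b u * r ^ k.val := by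
  have add (u w : M) (k l : ZMod 4) : hh a b (u + w) * r ^ (k + l).val =
      hh a b u * r ^ k.val * (hh a b w * r ^ l.val) := by
    rw [hh_add h, pw_add h.r4]
    exact ((r_comm h (hh_mem_L h w)).pow_right _).mul_mul_mul_comm _ _
  induction hc using closure_induction with
  | mem c hc =>
    rcases hc with rfl | rfl | rfl
    · exact ⟨(1, 0), 0, by rw [hh_a]; simp⟩
    · exact ⟨(0, 1), 0, by rw [hh_b]; simp⟩
    · exact ⟨0, 1, by rw [hh_zero, one_mul]; exact (pow_one _).symm⟩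
  | one => exact ⟨0, 0, by rw [hh_zero]; simp⟩
  | mul c d _ _ hc hd =>
    obtain ⟨u, k, rfl⟩ := hc
    obtain ⟨w, l, rfl⟩ := hd
    exact ⟨_, _, (add u w k l).symm⟩
  | inv c _ hc =>
    obtain ⟨u, k, rfl⟩ := hc
    exact ⟨-u, -k, inv_eq_of_mul_eq_one_left (by
      rw [← add, neg_add_cancel, neg_add_cancel, hh_zero]; simp)⟩

theorem Acts.app {g : G} {p o : M} (k : Acts a b g p o) (u : M) :
    g * hh a b u * g⁻¹ = hh a b (lin p o u) := by
  rw [lin, hh_add h, hh_smul h, hh_smul h, ← k.1, ← k.2, conj_pow, conj_pow, conj_mul, hh]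

theorem Acts.mul {g g' : G} {p o p' o' : M} (k : Acts a b g p o) (k' : Acts a b g' p' o') :
    Acts a b (g * g') (lin p o p') (lin p o o') :=
  ⟨by rw [← k.app h, ← k'.1]; group, by rw [← k.app h, ← k'.2]; group⟩

theorem acts_x : Acts a b x (0, 1) (-(1, 1)) :=
  ⟨by rw [hh_b, h.xa], by rw [hh_neg h, h.xb]; change _ = (a ^ 1 * b ^ 1)⁻¹; simp⟩

theorem s_inv : s⁻¹ = s := inv_eq_of_mul_eq_one_right h.s2

theorem acts_s : Acts a b s (0, 1) (1, 0) :=
  ⟨by rw [hh_b, h.sa], by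
    rw [hh_a, ← h.sa, show s * (s * a * s⁻¹) * s⁻¹ = s * s * a * (s * s)⁻¹ by group, h.s2]; simp⟩

theorem acts_xi : Acts a b x⁻¹ (-(1, 1)) (1, 0) := by
  rw [show x⁻¹ = x * x from inv_eq_of_mul_eq_one_right ((pow_three x).symm.trans h.x3)]
  exact (acts_x h).mul h (acts_x h)

/-- An element of `Q` that centralises `t` centralises `Y`. -/
theorem fix {q : G} (hq : q ∈ Qs a b t) (e : q * t * q⁻¹ = t) :
    Commute a q ∧ Commute b q ∧ Commute r q := by
  have h1 : q ∈ Ys a b r := by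
    rw [← h.cE, Ce, centralizer_closure, mem_centralizer_iff]
    rintro _ (rfl | rfl | rfl)
    · exact (mul_inv_eq_iff_eq_mul.1 e).symm
    · exact mem_centralizer_iff.1 hq.2 _ (subset_closure (by simp))
    · exact mem_centralizer_iff.1 hq.2 _ (subset_closure (by simp))
  obtain ⟨u, k, rfl⟩ := of_mem_Y h h1
  refine ⟨Commute.mul_right ?_ ((r_comm h h.aL).pow_right _),
    Commute.mul_right ?_ ((r_comm h h.bL).pow_right _),
    (r_comm h (hh_mem_L h u)).symm.mul_right ((Commute.refl r).pow_right _)⟩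
  · have := hh_comm h (1, 0) u
    rwa [hh_a] at this
  · have := hh_comm h (0, 1) u
    rwa [hh_b] at this

theorem exists_dat {q : G} (hq : q ∈ Qs a b t) : ∃ v p o, v + v = 0 ∧ p + p = (2, 0) ∧
    o + o = (0, 2) ∧ Dat a b t q v p o := by
  obtain ⟨v, h1, e1⟩ := of_mem_V h (h.nE q hq.1).1
  obtain ⟨p, h2, e2⟩ := of_mem_V h (h.nH q hq a (subset_closure (by simp)))
  obtain ⟨o, h3, e3⟩ := of_mem_V h (h.nH q hq b (subset_closure (by simp)))
  refine ⟨v, p + (1, 0), o + (0, 1), h1, by rw [add_add_add_comm, h2]; rfl,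
    by rw [add_add_add_comm, h3]; rfl, hq, ?_, ?_, ?_⟩
  · rw [← e1, mul_assoc _ t t, tt h, mul_one]
  · rw [hh_add h, ← e2, hh_a, inv_mul_cancel_right]
  · rw [hh_add h, ← e3, hh_b, inv_mul_cancel_right]

theorem Dat.uniq {q q' : G} {v p o p' o' : M} (d : Dat a b t q v p o) (d' : Dat a b t q' v p' o') :
    p = p' ∧ o = o' := by
  obtain ⟨h1, h2, -⟩ := fix h (mul_mem (inv_mem d.mem) d'.mem) (by
    rw [show q⁻¹ * q' * t * (q⁻¹ * q')⁻¹ = q⁻¹ * (q' * t * q'⁻¹) * q by group, d'.tt, ← d.tt]; group)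
  refine ⟨hh_inj h ?_, hh_inj h ?_⟩
  · rw [← d.act.1, ← d'.act.1, show q' * a * q'⁻¹ = q * (q⁻¹ * q' * a) * q'⁻¹ by group, ← h1.eq]
    group
  · rw [← d.act.2, ← d'.act.2, show q' * b * q'⁻¹ = q * (q⁻¹ * q' * b) * q'⁻¹ by group, ← h2.eq]
    group

theorem Dat.mul {q q' : G} {v p o v' p' o' : M} (d : Dat a b t q v p o)
    (d' : Dat a b t q' v' p' o') : Dat a b t (q * q') (lin p o v' + v) (lin p o p') (lin p o o') :=
  ⟨mul_mem d.mem d'.mem, by
    rw [hh_add h, ← d.act.app h, mul_assoc _ (hh a b v) t, ← d.tt,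
      show q * q' * t * (q * q')⁻¹ = q * (q' * t * q'⁻¹) * q⁻¹ by group, d'.tt]
    group, d.act.mul h d'.act⟩

theorem dat_one : Dat a b t 1 0 (1, 0) (0, 1) :=
  ⟨one_mem _, by simp [hh_zero], by simp [hh_a], by simp [hh_b]⟩

theorem Dat.conj [Finite G] {q g : G} {v p o p₁ o₁ p₂ o₂ : M} (d : Dat a b t q v p o) (hg : g ∈ L)
    (k : Acts a b g p₁ o₁) (k' : Acts a b g⁻¹ p₂ o₂) : Dat a b t (g * q * g⁻¹) (lin p₁ o₁ v)
      (lin (lin p₁ o₁ p) (lin p₁ o₁ o) p₂) (lin (lin p₁ o₁ p) (lin p₁ o₁ o) o₂) := by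
  have ct := (t_comm h hg).eq
  have hV : cj g (V0 a b) ≤ V0 a b := by
    rintro _ ⟨c, hc, rfl⟩
    obtain ⟨u, h1, rfl⟩ := of_mem_V h hc
    change g * hh a b u * g⁻¹ ∈ _
    rw [k.app h]
    refine hh_mem_V ?_
    rw [lin, add_add_add_comm, ← add_smul, ← add_smul, show u.1 + u.1 = 0 from congrArg Prod.fst h1,
      show u.2 + u.2 = 0 from congrArg Prod.snd h1, zero_smul, zero_smul, add_zero]
  have hE : cj g (Es a b t) ≤ Es a b t := by
    rw [cj_le_iff, closure_le]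
    rintro _ (rfl | rfl | rfl)
    · rw [SetLike.mem_coe, mem_cj, inv_inv, ct, mul_inv_cancel_right]
      exact subset_closure (by simp)
    · exact cj_mono _ V_le_E (cj_le_iff.1 hV (subset_closure (by simp)))
    · exact cj_mono _ V_le_E (cj_le_iff.1 hV (subset_closure (by simp)))
  have nE := mem_normalizer_of_cj_le hE
  refine ⟨mem_inf.2 ⟨mul_mem (mul_mem nE (mem_inf.1 d.mem).1) (inv_mem nE), conj_mem_of_mem_normalizer
    (normalizer_le_normalizer_centralizer _ (mem_normalizer_of_cj_le hV)) (mem_inf.1 d.mem).2⟩, ?_,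
    (k.mul h d.act).mul h k'⟩
  rw [← k.app h, show g * q * g⁻¹ * t * (g * q * g⁻¹)⁻¹ = g * (q * (g⁻¹ * (t * g)) * q⁻¹) * g⁻¹ by group,
    ← ct, inv_mul_cancel_left, d.tt, mul_assoc (g * hh a b v), ← mul_assoc g, mul_assoc _ t,
    ← ((t_comm h hg).inv_left).eq]

/-- the action of `x` -/
abbrev fx : M → M := lin (0, 1) (-(1, 1))
/-- the action of `s` -/
abbrev fs : M → M := lin (0, 1) (1, 0)

omit h in
theorem cls0 : ∀ p o : M, p + p = (2, 0) → o + o = (0, 2) →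
    lin (lin (fx p) (fx o) (-(1, 1))) (lin (fx p) (fx o) (1, 0)) (2, 0) + fx (2, 0) = fx (fx (2, 0)) := by
  decide +kernel

omit h in
set_option synthInstance.maxSize 2048 in
theorem cls : ∀ p o : M, p + p = (2, 0) → o + o = (0, 2) →
    lin (fx p) (fx o) (-(1, 1)) = lin (fs p) (fs o) (0, 1) →
    lin (fx p) (fx o) (1, 0) = lin (fs p) (fs o) (1, 0) →
    lin (fx (lin (fx p) (fx o) (-(1, 1)))) (fx (lin (fx p) (fx o) (1, 0))) (1, 0) =
      lin (lin (fx p) (fx o) (-(1, 1))) (lin (fx p) (fx o) (1, 0)) o →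
    p = (1, 0) ∧ o = (0, 1) ∨ p = (3, 0) ∧ o = (2, 3) := by
  decide +kernel

/-- The two possible actions of `Q` on `H`. -/
theorem key [Finite G] : ∃ c : ZMod 4, (c = 0 ∨ c = 1) ∧
    (∀ v : M, v + v = 0 → ∃ q p o, Dat a b t q v p o) ∧
    ∀ q v p o, v + v = 0 → Dat a b t q v p o →
      p = (1, 0) + c • (v.1 + v.2, v.2) ∧ o = (0, 1) + c • (v.1, v.1 + v.2) := by
  obtain ⟨q, hq, e⟩ := h.ex
  obtain ⟨v, p, o, -, hp, ho, d⟩ := exists_dat h hq
  obtain rfl : v = (2, 0) := hh_inj h (by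
    have := d.tt
    rw [e, ← hh_A (b := b), ← (t_comm h (hh_mem_L h _)).eq] at this
    exact (mul_right_cancel this).symm)
  have d1 := d.conj h h.xL (acts_x h) (acts_xi h)
  have d2 := d1.conj h h.xL (acts_x h) (acts_xi h)
  have d3 := d.conj h h.sL (acts_s h) (by rw [s_inv h]; exact acts_s h)
  have d4 := d1.mul h d
  have u1 := d1.uniq h d3
  rw [cls0 p o hp ho] at d4
  obtain ⟨c, hc, rfl, rfl⟩ : ∃ c : ZMod 4, (c = 0 ∨ c = 1) ∧ p = (1, 0) + c • (2, 0) ∧
      o = (0, 1) + c • (2, 2) := by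
    rcases cls p o hp ho u1.1 u1.2 (d2.uniq h d4).2 with ⟨rfl, rfl⟩ | ⟨rfl, rfl⟩
    exacts [⟨0, .inl rfl, rfl, rfl⟩, ⟨1, .inr rfl, rfl, rfl⟩]
  have ex (v : M) (hv : v + v = 0) : ∃ q, Dat a b t q v ((1, 0) + c • (v.1 + v.2, v.2))
      ((0, 1) + c • (v.1, v.1 + v.2)) := by
    rcases (by clear * - hv; revert v; decide : v = 0 ∨ v = (2, 0) ∨ v = (0, 2) ∨ v = (2, 2)) with
      rfl | rfl | rfl | rfl <;> rcases hc with rfl | rfl
    exacts [⟨_, dat_one h⟩, ⟨_, dat_one h⟩, ⟨_, d⟩, ⟨_, d⟩, ⟨_, d1⟩, ⟨_, d1⟩, ⟨_, d2⟩, ⟨_, d2⟩]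
  exact ⟨c, hc, fun v hv => (ex v hv).imp fun _ k => ⟨_, _, k⟩,
    fun q v p o hv k => k.uniq h (ex v hv).choose_spec⟩

omit h in
set_option synthInstance.maxSize 2048 in
theorem cen0 : ∀ v w : M, v + v = 0 → v ≠ 0 →
    (lin ((1, 0) + (1 : ZMod 4) • (v.1 + v.2, v.2)) ((0, 1) + (1 : ZMod 4) • (v.1, v.1 + v.2)) w = w →
      w + w = 0) ∧
    (lin ((1, 0) + (1 : ZMod 4) • (v.1 + v.2, v.2)) ((0, 1) + (1 : ZMod 4) • (v.1, v.1 + v.2)) w + v = w →
      w + w = v) := by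
  decide +kernel

theorem Dat.ne {q : G} {v p o : M} (d : Dat a b t q v p o) (e : q * t * q⁻¹ ≠ t) : v ≠ 0 := by
  rintro rfl
  exact e (by rw [d.tt, hh_zero, one_mul])

/-- The centraliser in `H ⟨t⟩`. -/
theorem Dat.cen {q c : G} {v w : M} (d : Dat a b t q v ((1, 0) + (1 : ZMod 4) • (v.1 + v.2, v.2))
    ((0, 1) + (1 : ZMod 4) • (v.1, v.1 + v.2))) (hv : v + v = 0) (h0 : v ≠ 0)
    (hc : c = hh a b w ∨ c = hh a b w * t) (k : Commute c q) :
    c ∈ V0 a b ∨ ∃ g ∈ Hs a b, t * g ^ 2 = q * t * q⁻¹ ∧ c = t * g := by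
  have e : q * c * q⁻¹ = c := by rw [← k.eq, mul_inv_cancel_right]
  rcases hc with rfl | rfl
  · rw [d.act.app h] at e
    exact .inl (hh_mem_V ((cen0 v w hv h0).1 (hh_inj h e)))
  · rw [← conj_mul, d.act.app h, d.tt, ← mul_assoc, ← hh_add h] at e
    refine .inr ⟨hh a b w, hh_mem_H w, ?_, (t_comm h (hh_mem_L h w)).eq⟩
    rw [sq, ← hh_add h, (cen0 v w hv h0).2 (hh_inj h (mul_right_cancel e)), d.tt,
      (t_comm h (hh_mem_L h v)).eq]

theorem t_notMem : t ∉ L := by simpa using h.nz 1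

theorem psi_two [Finite G] (e : r = t) : Psi a b r t := by
  obtain ⟨c, hc, -, k⟩ := key h
  refine ⟨fun q hq => ?_, ?_⟩
  · rw [e, inv_eq_of_mul_eq_one_right (tt h)]
    exact V_le_H (h.nE q hq.1).1
  rcases hc with rfl | rfl
  · refine .inl ⟨e, fun q hq => ?_⟩
    obtain ⟨v, p, o, hv, -, -, d⟩ := exists_dat h hq
    obtain ⟨rfl, rfl⟩ := k q v p o hv d
    have := d.act
    rw [Acts, zero_smul, zero_smul, add_zero, add_zero, hh_a, hh_b] at this
    exact ⟨mul_inv_eq_iff_eq_mul.1 this.1, mul_inv_eq_iff_eq_mul.1 this.2⟩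
  · refine .inr fun q hq ne c hc cm => ?_
    obtain ⟨v, p, o, hv, -, -, d⟩ := exists_dat h hq
    obtain ⟨rfl, rfl⟩ := k q v p o hv d
    obtain ⟨w, m, rfl⟩ := of_mem_Y h hc
    refine d.cen h hv (d.ne h ne) (w := w) ?_ cm
    have t2 : t ^ 2 = 1 := (sq t).trans (tt h)
    rw [e, pow_eq_pow_mod _ t2]
    rcases Nat.mod_two_eq_zero_or_one m.val with k | k <;> rw [k]
    exacts [.inl (by simp), .inr (by simp)]

theorem Y_inj (e : t = r ^ 2) {u w : M} {k l : ZMod 4}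
    (e' : hh a b u * r ^ k.val = hh a b w * r ^ l.val) : u = w ∧ k = l := by
  have h1 : r ^ (k + -l).val ∈ L := by
    have h2 : r ^ l.val * r ^ (-l).val = 1 := by rw [← pw_add h.r4, add_neg_cancel]; simp
    rw [pw_add h.r4, eq_inv_mul_iff_mul_eq.2 e', mul_assoc, mul_assoc, h2, mul_one]
    exact mul_mem (inv_mem (hh_mem_L h u)) (hh_mem_L h w)
  have h2 : k + -l = 0 := by
    generalize k + -l = m at h1
    by_contra h0
    refine t_notMem h ?_
    rcases (by clear * - h0; revert m; decide : m = 1 ∨ m = 2 ∨ m = 3) with rfl | rfl | rfl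
    · rw [e]; exact pow_mem (by simpa using (show r ^ 1 ∈ L from h1)) 2
    · rw [e]; exact h1
    · have := pow_mem (show r ^ 3 ∈ L from h1) 2
      rwa [← pow_mul, pow_eq_pow_mod _ h.r4, ← e] at this
  obtain rfl : k = l := add_neg_eq_zero.1 h2
  exact ⟨hh_inj h (mul_right_cancel e'), rfl⟩

theorem conj_Y {q : G} {p o u : M} {k : ZMod 4} (d : Acts a b q p o)
    (e : q * r * q⁻¹ = hh a b u * r ^ k.val) (w : M) (m : ZMod 4) :
    q * (hh a b w * r ^ m.val) * q⁻¹ = hh a b (lin p o w + m • u) * r ^ (k * m).val := by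
  rw [← conj_mul, ← conj_pow, d.app h, e, ((r_comm h (hh_mem_L h u)).pow_right _).mul_pow,
    hh_add h, hh_smul h, ← pow_mul, ZMod.val_mul, ← pow_eq_pow_mod _ h.r4, mul_assoc]

/-- The action on `r` when `r` has order `4`. -/
theorem Dat.act_r (e : t = r ^ 2) {q : G} {v p o : M} (d : Dat a b t q v p o)
    (hv : lin p o v + v = 0) : ∃ (u : M) (k : ZMod 4), q * r * q⁻¹ = hh a b u * r ^ k.val ∧
      u + u = v ∧ k * 2 = 2 ∧ lin p o u + k • u = 0 := by
  have h1 : q * r * q⁻¹ ∈ Ys a b r := by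
    rw [← h.cE]
    refine conj_mem_of_mem_normalizer (normalizer_le_normalizer_centralizer _ (mem_inf.1 d.mem).1) ?_
    rw [h.cE]; exact subset_closure (by simp)
  obtain ⟨u, k, e1⟩ := of_mem_Y h h1
  have l0 : lin p o 0 = 0 := by simp [lin]
  have h2 := conj_Y h d.act e1 0 2
  rw [hh_zero, one_mul, show r ^ (2 : ZMod 4).val = t from e.symm, d.tt, l0, zero_add, two_smul,
    show t = r ^ (2 : ZMod 4).val from e] at h2
  have d2 := d.mul h d
  have h3 := (fix h d2.mem (by rw [d2.tt, hv, hh_zero, one_mul])).2.2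
  have h4 := conj_Y h d.act e1 u k
  rw [← e1, show q * (q * r * q⁻¹) * q⁻¹ = q * q * r * (q * q)⁻¹ by group, ← h3.eq,
    mul_inv_cancel_right] at h4
  have h5 := Y_inj h e (u := 0) (k := 1) ((by rw [hh_zero, one_mul]; exact pow_one r :
    hh a b 0 * r ^ (1 : ZMod 4).val = r).trans h4)
  exact ⟨u, k, e1, (Y_inj h e h2).1.symm, (Y_inj h e h2).2.symm, h5.1.symm⟩

omit h in
set_option synthInstance.maxSize 2048 in
theorem num0 : ∀ (u : M) (k : ZMod 4), u + u ≠ 0 → k * 2 = 2 →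
    (lin ((1, 0) + (0 : ZMod 4) • ((u + u).1 + (u + u).2, (u + u).2))
      ((0, 1) + (0 : ZMod 4) • ((u + u).1, (u + u).1 + (u + u).2)) u + k • u = 0 → k = 3) ∧
    (lin ((1, 0) + (1 : ZMod 4) • ((u + u).1 + (u + u).2, (u + u).2))
      ((0, 1) + (1 : ZMod 4) • ((u + u).1, (u + u).1 + (u + u).2)) u + k • u = 0 → k = 1) := by
  decide +kernel

omit h in
theorem num1 : ∀ (c : ZMod 4) (v : M), v + v = 0 →
    lin ((1, 0) + c • (v.1 + v.2, v.2)) ((0, 1) + c • (v.1, v.1 + v.2)) v + v = 0 := by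
  decide +kernel

omit h in
set_option synthInstance.maxSize 2048 in
theorem num2 : ∀ (u w : M) (m : ZMod 4), u + u ≠ 0 →
    lin ((1, 0) + (1 : ZMod 4) • ((u + u).1 + (u + u).2, (u + u).2))
      ((0, 1) + (1 : ZMod 4) • ((u + u).1, (u + u).1 + (u + u).2)) w + m • u = w → m = 0 ∨ m = 2 := by
  decide +kernel

theorem psi_four [Finite G] (e : t = r ^ 2) : Psi a b r t := by
  obtain ⟨c, hc, ex, k⟩ := key h
  have act {q : G} {v p o : M} (d : Dat a b t q v p o) (hv : v + v = 0) (h0 : v ≠ 0) :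
      ∃ u : M, u + u = v ∧ q * r * q⁻¹ = hh a b u * r ^ (if c = 0 then 3 else 1 : ZMod 4).val := by
    obtain ⟨rfl, rfl⟩ := k q v p o hv d
    obtain ⟨u, m, e1, rfl, e2, e3⟩ := d.act_r h e (num1 c v hv)
    refine ⟨u, rfl, ?_⟩
    rcases hc with rfl | rfl
    · rw [e1, (num0 u m h0 e2).1 e3]; rfl
    · rw [e1, (num0 u m h0 e2).2 e3]; rfl
  rcases hc with rfl | rfl
  · exfalso
    obtain ⟨q, p, o, d⟩ := ex (2, 0) (by decide)
    obtain ⟨q', p', o', d'⟩ := ex (0, 2) (by decide)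
    obtain ⟨u, -, e1⟩ := act d (by decide) (by decide)
    obtain ⟨u', -, e2⟩ := act d' (by decide) (by decide)
    obtain ⟨rfl, rfl⟩ := k q _ p o (by decide) d
    obtain ⟨u'', -, e3⟩ := act (d.mul h d') (by decide) (by decide)
    have h4 := conj_Y h d.act e1 u' (if (0 : ZMod 4) = 0 then 3 else 1)
    rw [← e2, show q * (q' * r * q'⁻¹) * q⁻¹ = q * q' * r * (q * q')⁻¹ by group, e3] at h4
    exact absurd (Y_inj h e h4).2 (by decide)
  refine ⟨fun q hq => ?_, .inr fun q hq ne c hc cm => ?_⟩ <;>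
    obtain ⟨v, p, o, hv, -, -, d⟩ := exists_dat h hq
  · by_cases h0 : v = 0
    · rw [← (fix h hq (by rw [d.tt, h0, hh_zero, one_mul])).2.2.eq]
      simp
    · obtain ⟨u, -, e1⟩ := act d hv h0
      rw [e1, show r ^ (if (1 : ZMod 4) = 0 then 3 else 1 : ZMod 4).val = r from pow_one r,
        mul_inv_cancel_right]
      exact hh_mem_H u
  · have h0 := d.ne h ne
    obtain ⟨u, rfl, e1⟩ := act d hv h0
    obtain ⟨rfl, rfl⟩ := k q _ p o hv d
    obtain ⟨w, m, rfl⟩ := of_mem_Y h hc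
    have h4 := conj_Y h d.act e1 w m
    rw [← cm.eq, mul_inv_cancel_right] at h4
    refine d.cen h hv h0 (w := w) ?_ cm
    rcases num2 u w m h0 (Y_inj h e h4).1.symm with rfl | rfl
    exacts [.inl (by simp), .inr (by rw [e]; rfl)]

end

universe u

theorem jobUQ2 : JobUQ2.{u} := fun _ _ _ _ _ _ _ _ _ _ _ h =>
  h.tr.elim (fun e => psi_two h e.symm) (psi_four h)

end H37.DPQ2
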