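import Cfsg.Agent.H36.E7MSpec
import Cfsg.Agent.H43.Core6
import Cfsg.Agent.H65.All

/-! E7MAX (S5934): the subgroups `P j` are the maximal parabolic subgroups of the root group datum. -/

set_option autoImplicit false

namespace H37.E7PM

open Cfsg.Lie H36.E7M

theorem ad : H63.Ad chevE7 (H63.xG chevE7 F) :=
  have := H65.commE7
  H63.ad_xG H64.matOK

/-- The root group datum of `E₇(2)`. -/
noncomputable abbrev T : H64.RGD (H64.wdata chevE7) G := ad.toStB.rgd

theorem T_Gp : T.Gp = ⊤ := ad.Gp_eq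
theorem T_H : T.H = ⊥ := H43.Core6.H_eq_bot ad.toStB

theorem co_eq : ∀ r < 126, ∀ j < 7, co r j = H63.certE7.rtc r j := by decide +kernel

theorem co_rt (r : H63.Rt chevE7) (j : Fin chevE7.rank) : co r j = H63.rt r j := by
  rw [H63.rt_E7]; exact co_eq r r.2 j j.2

theorem mem_X {r : H63.Rt chevE7} {g : G} : g ∈ T.X r ↔ g = 1 ∨ g = x r := by
  refine ad.toStB.toSt.mem_XR.trans ⟨?_, ?_⟩
  · rintro ⟨t, rfl⟩
    rcases (by revert t; decide : t = 0 ∨ t = 1) with rfl | rfl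
    exacts [.inl (ad.toStB.toSt.x_zero r), .inr rfl]
  · rintro (rfl | rfl)
    exacts [⟨0, (ad.toStB.toSt.x_zero r).symm⟩, ⟨1, rfl⟩]

theorem gen_eq (S : Set (H63.Rt chevE7)) (p : ℕ → Prop) (h : ∀ r, r ∈ S ↔ p r) :
    H64.gen T.X S = Subgroup.closure {g | ∃ r < 126, p r ∧ g = x r} := by
  refine le_antisymm (H64.gen_le fun r hr g hg => ?_) ((Subgroup.closure_le _).2 ?_)
  · rcases mem_X.1 hg with rfl | rfl
    exacts [one_mem _, Subgroup.subset_closure ⟨r, r.2, (h r).1 hr, rfl⟩]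
  · rintro _ ⟨r, hr, hp, rfl⟩
    exact H64.le_gen T.X (c := ⟨r, hr⟩) ((h _).2 hp) (mem_X.2 (.inr rfl))

theorem P_eq (j : Fin 7) : P j = T.PJ {i : Fin chevE7.rank | i ≠ j} := by
  rw [T.PJ_eq_gen, T_H, bot_sup_eq, P]
  refine (gen_eq _ (fun r => 0 ≤ co r j) fun r => ?_).symm
  rw [show co r j = H63.rt r j from co_rt r j]
  refine ⟨?_, fun h => ?_⟩
  · rintro (h | h)
    · exact h j
    · exact (H64.mem_PhiJ_iff.1 h j fun k => k rfl).ge
  · refine or_iff_not_imp_left.2 fun k => H64.mem_PhiJ_iff.2 fun i hi => ?_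
    obtain rfl : i = j := not_not.1 hi
    exact le_antisymm (H63.not_pos_iff.1 k _) h

theorem jobPM : JobPM := fun j => by
  rw [P_eq]; exact H43.Core6.isCoatom_PJ T T_Gp j

end H37.E7PM
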