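import Cfsg.Agent.H40.E82Spec

/-! Tower E82 (S5915): slot `B0`, vectors and functionals fixed by the Borel subgroup. -/

set_option autoImplicit false

namespace H37.E82B0

open Matrix Module H56.SL2M H40.E82
open scoped MatrixGroups Classical

universe u

variable {F : Type u} [Field F]

theorem hh_ww (s : Fˣ) : (hh s * ww : SL(2, F)) = ww * hh s⁻¹ := by
  ext i j; fin_cases i <;> fin_cases j <;> simp [hh_coe, ww_coe]

theorem wxw_ne {t : F} (h : t ≠ 0) :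
    (ww * xx t * ww : SL(2, F)) = xx (-t⁻¹) * (ww * (hh (Units.mk0 t h) * xx (-t⁻¹))) := by
  ext i j; fin_cases i <;> fin_cases j <;> simp [hh_coe, xx_coe, ww_coe, h]

variable [Fintype F] {k V : Type} [Field k] [CharP k 2] [AddCommGroup V] [Module k V]
  (ι : F →+* k) (ρ : Representation k SL(2, F) V)

omit [Fintype F] [CharP k 2] in
theorem app_mul (g h : SL(2, F)) (v : V) : ρ (g * h) v = ρ g (ρ h v) := by rw [map_mul]; rfl

/-- the sum over the unipotent radical -/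
noncomputable def N : End k V := ∑ a : F, ρ (xx a)

omit [CharP k 2] in
theorem N_apply (v : V) : N ρ v = ∑ a : F, ρ (xx a) v := by rw [N, LinearMap.sum_apply]

omit [CharP k 2] in
theorem x_N (t : F) (v : V) : ρ (xx t) (N ρ v) = N ρ v := by
  rw [N_apply, map_sum]
  exact Fintype.sum_equiv (Equiv.addLeft t) _ _ fun a => by
    rw [← app_mul, ← xx_add]; rfl

omit [CharP k 2] in
theorem h_N (s : Fˣ) (v : V) : ρ (hh s) (N ρ v) = N ρ (ρ (hh s) v) := by
  rw [N_apply, N_apply, map_sum]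
  exact Fintype.sum_equiv (Equiv.mulLeft₀ ((s : F) * s) (mul_ne_zero s.ne_zero s.ne_zero)) _ _
    fun a => by rw [← app_mul, hh_xx, app_mul]; rfl

omit [CharP k 2] in
include ι in
theorem N_fix {v : V} (h : ∀ t, ρ (xx t) v = v) : N ρ v = 0 := by
  rw [N_apply, Finset.sum_congr rfl fun a _ => h a, Finset.sum_const, Finset.card_univ,
    ← Nat.cast_smul_eq_nsmul k, ← map_natCast ι, FiniteField.cast_card_eq_zero, map_zero, zero_smul]

omit [CharP k 2] in
theorem w_N {v : V} (hx : ∀ t, ρ (xx t) v = v) (hs : ∀ s, ρ (hh s) v = v) :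
    ρ ww (N ρ (ρ ww v)) = v + N ρ (ρ ww v) - ρ ww v := by
  have e : ∑ t : F, (ρ (ww * xx t * ww) v - ρ (xx (-t⁻¹)) (ρ ww v)) = v - ρ ww v := by
    rw [Finset.sum_eq_single 0 (fun t _ h => ?_) (by simp), wxw_zero, hs, _root_.inv_zero, neg_zero,
      xx_zero, map_one]
    · rfl
    · rw [wxw_ne h, app_mul, app_mul, app_mul, hx, hs, sub_self]
  have e2 : ∑ t : F, ρ (xx (-t⁻¹)) (ρ ww v) = ∑ t : F, ρ (xx t) (ρ ww v) :=
    Equiv.sum_comp ((Equiv.inv F).trans (Equiv.neg F)) fun a => ρ (xx a) (ρ ww v)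
  rw [Finset.sum_sub_distrib, sub_eq_iff_eq_add, e2] at e
  rw [N_apply, map_sum, Finset.sum_congr rfl fun a _ => by rw [← app_mul, ← app_mul], e]
  abel

variable (a : JobA.{u}) (hq : Fintype.card F ≤ 64)
include a hq ι

theorem E_apply (v : V) :
    E ρ v = N ρ v + ∑ t : F, ρ (xx t) (ρ ww (N ρ (ρ ww (ρ (xx t) v)))) := by
  obtain ⟨-, -, -, h4, h5, -⟩ := a ι ρ hq
  rw [h5, h4, LinearMap.add_apply, LinearMap.sum_apply _ _ v, LinearMap.sum_apply _ _ v, ← N_apply]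
  rfl

theorem E_comm (g : SL(2, F)) (v : V) : E ρ (ρ g v) = ρ g (E ρ v) :=
  (LinearMap.congr_fun ((a ι ρ hq).2.2.2.2.2.1 g) v).symm

theorem part1 (v : V) (hx : ∀ t, ρ (xx t) v = v) (hs : ∀ s, ρ (hh s) v = v)
    (hn : ∃ n, (E ρ ^ n) v = 0) (g : SL(2, F)) : ρ g v = v := by
  have y1 (t : F) := x_N ρ t (ρ ww v)
  have y2 (s : Fˣ) : ρ (hh s) (N ρ (ρ ww v)) = N ρ (ρ ww v) := by
    rw [h_N, ← app_mul, hh_ww, app_mul, hs]
  have y3 := w_N ρ hx hs
  have y4 : N ρ (ρ ww (N ρ (ρ ww v))) = -N ρ (ρ ww v) := by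
    rw [y3, map_sub, map_add, N_fix ι ρ hx, N_fix ι ρ y1, add_zero, zero_sub]
  have y5 : E ρ (N ρ (ρ ww v)) = N ρ (ρ ww v) := by
    rw [E_apply ι ρ a hq, N_fix ι ρ y1, zero_add, Finset.sum_congr rfl fun t _ => by rw [y1, y4],
      ← N_apply, map_neg, map_neg, y4, neg_neg]
  have y6 (n : ℕ) : N ρ (ρ ww ((E ρ ^ n) v)) = N ρ (ρ ww v) := by
    induction n with
    | zero => rfl
    | succ n ih =>
      rw [pow_succ', End.mul_apply, ← y5, ← ih, N_apply, N_apply, map_sum]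
      exact Finset.sum_congr rfl fun t _ => by rw [E_comm ι ρ a hq, E_comm ι ρ a hq]
  obtain ⟨n, hn⟩ := hn
  have y0 := y6 n
  rw [hn, map_zero, map_zero] at y0
  rw [← y0, map_zero, add_zero, eq_comm, sub_eq_zero, eq_comm] at y3
  by_cases h : g 1 0 = 0
  · obtain ⟨s, t, rfl⟩ := bruhat_zero g h
    rw [app_mul, hx, hs]
  · obtain ⟨t, s, e⟩ := bruhat_ne g h
    rw [e, app_mul, app_mul, app_mul, hx, y3, hs, hx]

theorem part2 (M : Submodule k V) (hM : Inv ρ M) (hn : ∃ n, ∀ v ∈ M, (E ρ ^ n) v = 0)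
    (φ : Dual k V) (hx : ∀ t, ∀ v ∈ M, φ (ρ (xx t) v) = φ v)
    (hs : ∀ s, ∀ v ∈ M, φ (ρ (hh s) v) = φ v) (g : SL(2, F)) (v : V) (hv : v ∈ M) :
    φ (ρ g v) = φ v := by
  let σ := ρ.subrepresentation M hM
  have e1 (ψ : Dual k M) (w : M) : E σ.dual ψ w = ψ (E σ w) := by
    rw [E, E, LinearMap.sum_apply, LinearMap.sum_apply, LinearMap.sum_apply, map_sum]
    refine Finset.sum_congr rfl fun g hg => ?_
    change ψ (σ g⁻¹ w) = _
    rw [inv_eq_of_mul_eq_one_right (Finset.mem_filter.1 hg).2]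
  have e2 (w : M) : (E σ w : V) = E ρ w := by
    rw [E, E, LinearMap.sum_apply, LinearMap.sum_apply, Submodule.coe_sum]
    rfl
  have e3 (n : ℕ) (w : M) : (E σ.dual ^ n) (φ ∘ₗ M.subtype) w = φ ((E ρ ^ n) w) := by
    induction n generalizing w with
    | zero => rfl
    | succ n ih => rw [pow_succ', End.mul_apply, e1, ih, e2, pow_succ, End.mul_apply]
  obtain ⟨n, hn⟩ := hn
  have := part1 ι σ.dual a hq (φ ∘ₗ M.subtype) (fun t => LinearMap.ext fun w => ?_)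
    (fun s => LinearMap.ext fun w => ?_)
    ⟨n, LinearMap.ext fun w => by rw [e3, hn _ w.2, map_zero]; rfl⟩ g⁻¹
  · have := LinearMap.congr_fun this ⟨v, hv⟩
    change φ (ρ g⁻¹⁻¹ v) = φ v at this
    rwa [inv_inv] at this
  · change φ (ρ (xx t)⁻¹ w) = φ w
    rw [inv_eq_of_mul_eq_one_right (show xx t * xx (-t) = 1 by rw [← xx_add, add_neg_cancel, xx_zero]),
      hx _ _ w.2]
  · change φ (ρ (hh s)⁻¹ w) = φ w
    rw [inv_eq_of_mul_eq_one_right (show hh s * hh s⁻¹ = 1 by rw [← hh_mul, mul_inv_cancel, hh_one]),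
      hs _ _ w.2]

omit ι a hq [CharP k 2] in
theorem N_mem {W : Submodule k V} (h : Inv ρ W) {v : V} (hv : v ∈ W) : N ρ v ∈ W := by
  rw [N_apply]; exact Submodule.sum_mem _ fun t _ => h _ _ hv

theorem part3a {W W' : Submodule k V} {j : ℕ} (h : Step ι ρ W W' j) (hj : j ≠ Fintype.card F - 1)
    (v : V) (hv : v ∈ W') : E ρ v ∈ W := by
  obtain ⟨h0, -, hW, hW', z, -, h1, -, h3, -⟩ := h
  obtain ⟨-, a2, -, a4, -⟩ := a ι ρ hq
  have k (v : V) (hv : v ∈ W') : N ρ v ∈ W := by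
    obtain ⟨c, hc⟩ := h1 v hv
    rw [← sub_add_cancel v (∑ r ∈ sb j, c r • A ι ρ r z), map_add, map_sum]
    refine add_mem (N_mem ρ hW hc) (Submodule.sum_mem _ fun r _ => ?_)
    rw [map_smul, N, ← a4, ← End.mul_apply, a2]
    refine Submodule.smul_mem _ _ ?_
    split_ifs
    · refine h3 _ fun hr => ?_
      have := (Finset.mem_filter.1 hr).2.ge.trans Nat.and_le_right
      omega
    · exact zero_mem _
  rw [E_apply ι ρ a hq]
  exact add_mem (k v hv) (Submodule.sum_mem _ fun t _ => hW _ _ (hW _ _ (k _ (hW' _ _ (hW' _ _ hv)))))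

theorem part3b {W W' : Submodule k V} (h : Step ι ρ W W' (Fintype.card F - 1))
    (v : V) (hv : v ∈ W') : E ρ v - v ∈ W := by
  obtain ⟨-, -, hW, -, z, -, h1, -, -, -, h5, -⟩ := h
  obtain ⟨-, -, -, a4, -, -, a7, a8⟩ := a ι ρ hq
  rw [a4, ← N] at h5
  have hU : Inv ρ (W.comap (E ρ - 1)) := fun g v hv => by
    change E ρ (ρ g v) - ρ g v ∈ W
    rw [E_comm ι ρ a hq, ← map_sub]
    exact hW _ _ hv
  have hle : W ≤ W.comap (E ρ - 1) := fun v hv => by
    change E ρ v - v ∈ W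
    rw [E, LinearMap.sum_apply]
    exact sub_mem (Submodule.sum_mem _ fun g _ => hW _ _ hv) hv
  have h6 : z - ρ ww (N ρ z) ∈ W := by
    have := hW ww _ h5
    rwa [map_sub, ← app_mul, a7, map_one] at this
  have h7 : N ρ z - N ρ (ρ ww (N ρ z)) ∈ W := by rw [← map_sub]; exact N_mem ρ hW h6
  have h8 : N ρ z ∈ W.comap (E ρ - 1) := by
    change E ρ (N ρ z) - N ρ z ∈ W
    rw [E_apply ι ρ a hq, N_fix ι ρ fun t => x_N ρ t z, zero_add,
      Finset.sum_congr rfl fun t _ => by rw [x_N], ← N_apply]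
    have := add_mem h7 (N_mem ρ hW (hW ww _ h7))
    rw [map_sub, map_sub, add_sub, sub_add_cancel] at this
    simpa using neg_mem this
  have h9 : z ∈ W.comap (E ρ - 1) := by simpa using add_mem (hle h6) (hU ww _ h8)
  obtain ⟨c, hc⟩ := h1 v hv
  have : v ∈ W.comap (E ρ - 1) := by
    simpa using add_mem (hle hc) (Submodule.sum_mem _ fun r (_ : r ∈ sb (Fintype.card F - 1)) =>
      Submodule.smul_mem _ (c r) (a8 _ hU r z h9))
  exact this

theorem part4 {M : Submodule k V} {J : Multiset ℕ} (h : Fac ι ρ M J)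
    (hJ : Fintype.card F - 1 ∉ J) : ∃ n, ∀ v ∈ M, (E ρ ^ n) v = 0 := by
  induction h with
  | bot => exact ⟨0, fun v hv => hv⟩
  | step _ s ih =>
    rw [Multiset.mem_cons, not_or] at hJ
    obtain ⟨n, hn⟩ := ih hJ.2
    exact ⟨n + 1, fun v hv => by
      rw [pow_succ, End.mul_apply]; exact hn _ (part3a ι ρ a hq s (Ne.symm hJ.1) v hv)⟩

omit ι hq in
theorem jobB0 : JobB0.{u} := fun ι ρ hq =>
  ⟨part1 ι ρ a hq, part2 ι ρ a hq, fun _ _ _ h =>
    ⟨part3a ι ρ a hq h, fun e => part3b ι ρ a hq (e ▸ h)⟩, fun _ _ => part4 ι ρ a hq⟩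

end H37.E82B0
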