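import Cfsg.Agent.H36.NGSpec

/-! Tower NG, job D: the Sylow subgroup is self-centralizing. -/

set_option autoImplicit false

namespace H37.NG

open Cfsg H87 H39 H28 H36.NG Subgroup

universe u

variable {G : Type u} [Group G] {p U K n e t r : ℕ} {X Y : Finset (IrrCharacter G)}
  {δ : IrrCharacter G → ℤ} {ε d : ℤ}

theorem ks (a : JobAr1) (hp : p.Prime) (hr : r.Prime) (ne : r ≠ p) (h : Ty p U K n e t X Y δ ε d)
    (hd : d ≠ -1) (k : ∀ χ ∈ X, (r : ℤ) ∣ dg χ - δ χ) : False := by
  have c : ∀ {m : ℕ} {s : Finset (IrrCharacter G)}, (∀ χ ∈ s, χ ∈ X ∧ dg χ - δ χ = (m * p : ℕ)) →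
      0 < s.card → r ∣ m := fun l c => by
    obtain ⟨χ, hχ⟩ := Finset.card_pos.1 c
    exact ((Nat.coprime_primes hr hp).2 ne).dvd_of_dvd_mul_right
      (Int.natCast_dvd_natCast.1 ((l χ hχ).2 ▸ k χ (l χ hχ).1))
  have h2 := h.nm.two
  have nm := h.nm
  rw [show (B1 p X δ).card = 0 from Nat.eq_zero_of_not_pos fun l => hr.one_lt.ne' (Nat.dvd_one.1
    (c (fun χ hχ => ⟨(Finset.mem_filter.1 hχ).1, by
      have := (Finset.mem_filter.1 hχ).2; omega⟩) l))] at nm
  refine a p U K n e t _ _ _ r d nm hd hr.two_le (c fun χ hχ => ?_) (c fun χ hχ => ?_)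
    (c fun χ hχ => ?_) <;> obtain ⟨l1, l2, l3⟩ := Finset.mem_filter.1 hχ <;> refine ⟨l1, ?_⟩
  · have := Nat.le_mul_of_pos_left p (show 0 < U by omega)
    rw [Nat.sub_one_mul]; omega
  · omega
  · omega

theorem jobD (jT : JobTy.{u}) (j4 : JobG4.{u}) (jC : JobCg.{u}) (jE : JobEx.{u}) (jA : JobAr1) :
    JobD.{u} := fun G _ _ p U K n e t hp P X Y δ ε h => by
  classical
  by_contra hn
  have := h.simple
  have b := h.br
  have p2 := hp.out.two_le
  have h1 := h.hn
  have h2 := h.le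
  obtain ⟨r, d, I⟩ := j4 G p ⟨h.simple, h.perf, fun Q => by
    rw [Q.card_eq_multiplicity, ← P.card_eq_multiplicity, h.card], by
      rw [h.syl]; nlinarith⟩ P hn
  have te := b.te
  have e0 := b.e_pos
  rcases (show 2 ≤ t ∨ t = 1 by have := b.t_pos; omega) with ht | rfl
  · obtain ⟨d0, T⟩ := jT G p U K n e t P X Y δ ε h
    exact ks jA hp.out I.hr I.ne T (T.nm.d4 ht) fun χ hχ =>
      jC G p r P d h.card I (by rw [h.he]; nlinarith) χ _ (b.valX χ hχ)
  obtain ⟨θ, rfl⟩ := Finset.card_eq_one.1 b.cardY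
  have tY := Finset.mem_singleton_self θ
  have tX : θ ∉ X := fun k => b.ne_XY k tY rfl
  have up : ∀ χ ∈ X, Function.update δ θ (-ε) χ = δ χ := fun χ k =>
    Function.update_of_ne (b.ne_XY k tY) _ _
  have u1 := (up _ b.one_mem).trans b.δ_one
  have sg : ∀ χ, Function.update δ θ (-ε) χ = 1 ∨ Function.update δ θ (-ε) χ = -1 := fun χ => by
    rcases eq_or_ne χ θ with rfl | k
    · rcases b.sε with k | k <;> simp [k]
    · rw [Function.update_of_ne k]; exact b.sδ χ
  have val : ∀ χ ∈ insert θ X, ∀ g, p ∣ orderOf g →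
      (χ : G → ℂ) g = Function.update δ θ (-ε) χ := fun χ k g hg => by
    rcases Finset.mem_insert.1 k with rfl | k
    · simpa using b.valY g hg
    · rw [up χ k, b.valX χ k g hg]
  have reg : ∀ g, ¬ p ∣ orderOf g →
      ∑ χ ∈ insert θ X, (Function.update δ θ (-ε) χ : ℂ) * (χ : G → ℂ) g = 0 := fun g hg => by
    rw [Finset.sum_insert tX, Finset.sum_congr rfl fun χ k => by rw [up χ k], ← b.reg θ tY g hg]
    simp
  have core : ∀ χ ∈ insert θ X, pPrimeCore p G ≤ charKer (χ : G → ℂ) := fun χ k =>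
    b.core χ ((Finset.mem_insert.1 k).symm.imp_right Finset.mem_singleton.2)
  have cd : (insert θ X).card = p := by rw [Finset.card_insert_of_notMem tX, b.cardX]; omega
  have o1 : one G ∈ insert θ X := Finset.mem_insert_of_mem b.one_mem
  generalize Function.update δ θ (-ε) = δ', insert θ X = X' at u1 sg val reg core cd o1
  let N : IrrCharacter G → Prop := fun χ => ∀ i, ¬ r ∣ i → (χ : G → ℂ) (d ^ i) = δ' χ
  have r1 : ¬ r ∣ 1 := fun k => I.hr.one_lt.ne' (Nat.dvd_one.1 k)
  have sp : ∀ χ ∈ X', ¬ N χ → (χ : G → ℂ) d = (1 - p) * δ' χ := fun χ k l => by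
    simpa using (jE G p r P d h.card I (by rw [h.he]; omega) χ _ (val χ k)).resolve_left l 1 r1
  have s := reg d (by rw [I.ord, Nat.prime_dvd_prime_iff_eq hp.out I.hr]; exact I.ne.symm)
  rw [Finset.sum_congr rfl (g := fun χ => 1 - if ¬ N χ then (p : ℂ) else 0) fun χ k => by
    by_cases l : N χ
    · simpa [l, ← pow_one d ▸ l 1 r1] using sign_sq (sg χ)
    · rw [if_pos l, sp χ k l, mul_left_comm, sign_sq (sg χ), mul_one], Finset.sum_sub_distrib,
    ← Finset.sum_filter, Finset.sum_const, Finset.sum_const, cd, nsmul_one, nsmul_eq_mul,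
    sub_eq_zero, right_eq_mul₀ (Nat.cast_ne_zero.2 hp.out.ne_zero), Nat.cast_eq_one] at s
  obtain ⟨v, hv⟩ := Finset.card_eq_one.1 s
  obtain ⟨vX, vN⟩ := Finset.mem_filter.1 (hv.ge (Finset.mem_singleton_self v))
  have v1 : one G ≠ v := fun k => vN (k ▸ fun i _ => by simp [u1])
  obtain ⟨d0, T⟩ := jT G p U K n e 1 P (X'.erase v) {v} δ' (-δ' v) { h with
    br := ⟨b.hp, b.dvd, by simp, by rw [Finset.card_erase_of_mem vX]; omega, rfl, te,
      Finset.mem_erase.2 ⟨v1, o1⟩, sg, by rcases sg v with k | k <;> simp [k],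
      fun χ k => val χ (Finset.mem_of_mem_erase k), fun g hg => by simp [val v vX g hg],
      fun w hw g hg => by
        have := reg g hg
        rw [← Finset.add_sum_erase _ _ vX] at this
        rw [Finset.mem_singleton.1 hw]
        push_cast
        linear_combination -this,
      fun χ k => core χ (k.elim Finset.mem_of_mem_erase fun k => Finset.mem_singleton.1 k ▸ vX)⟩ }
  refine ks jA hp.out I.hr I.ne T (fun k => ?_) fun χ k => ?_
  · have k1 := T.hY v (Finset.mem_singleton_self v)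
    have k2 : (δ' v : ℂ) * dg v = 1 - p := by
      rw [k] at k1
      have : δ' v * dg v = 1 - p := by linear_combination k1
      exact_mod_cast this
    have k3 : d ∈ charKer (v : G → ℂ) := v.2.mem_charKer.2 (by
      rw [sp v vX vN, ← k2, ← coe_dg, mul_right_comm, sign_sq (sg v), one_mul])
    rw [v.2.charKer_eq_bot_of_simple fun k => v1 (Subtype.ext k).symm, mem_bot] at k3
    exact r1 (by rw [← I.ord, k3, orderOf_one])
  · have l : N χ := by
      by_contra l
      exact (Finset.mem_erase.1 k).1 (Finset.mem_singleton.1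
        (hv.le (Finset.mem_filter.2 ⟨Finset.mem_of_mem_erase k, l⟩)))
    obtain ⟨m, hm⟩ := (χ.2.isCharacter.restrict (zpowers d)).classInner_nat isCharacter_one
    have k1 := inner_res_prime I.hr ((Nat.card_zpowers d).trans I.ord) (f := χ) (c := δ' χ)
      fun y hy y1 => by
        obtain ⟨i, rfl⟩ := mem_powers_iff_mem_zpowers.2 hy
        exact l i fun c => y1 (orderOf_dvd_iff_pow_eq_one.1 (I.ord ▸ c))
    rw [hm, ← coe_dg] at k1
    have k2 : (r : ℤ) * m = dg χ + (r - 1) * δ' χ := by exact_mod_cast k1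
    exact ⟨m - δ' χ, by linear_combination -k2⟩

end H37.NG
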