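/- Tower R3, job Num4: the arithmetic of the four-dimensional case. -/
import Cfsg.Agent.H70.R3Spec

set_option autoImplicit false

namespace H37.R3Num4

theorem smooth_eq {n : ℕ} (h0 : n ≠ 0) (h : ∀ r, r.Prime → r ∣ n → r ≤ 5) :
    n = 2 ^ n.factorization 2 * 3 ^ n.factorization 3 * 5 ^ n.factorization 5 := by
  have hs : n.factorization.support ⊆ ({2, 3, 5} : Finset ℕ) := fun r hr => by
    have hp := Nat.prime_of_mem_primeFactors hr
    have h5 := h r hp (Nat.dvd_of_mem_primeFactors hr)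
    have h2 := hp.two_le
    have h4 : r ≠ 4 := fun e => by rw [e] at hp; exact absurd hp (by decide)
    simp only [Finset.mem_insert, Finset.mem_singleton]
    omega
  have := Finsupp.prod_of_support_subset n.factorization hs (fun a b => a ^ b) (fun _ _ => pow_zero _)
  rw [Nat.prod_factorization_pow_eq_self h0] at this
  refine this.trans ?_
  rw [Finset.prod_insert (by decide), Finset.prod_insert (by decide), Finset.prod_singleton, mul_assoc]

theorem exps {n a b c : ℕ} (e : n = 2 ^ a * 3 ^ b * 5 ^ c) (h : n ≤ 3072 ^ 2) :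
    a < 24 ∧ b < 15 ∧ c < 10 := by
  have p2 : 0 < 2 ^ a := by positivity
  have p3 : 0 < 3 ^ b := by positivity
  have p5 : 0 < 5 ^ c := by positivity
  have l2 : 2 ^ a ≤ n := e ▸ (Nat.le_mul_of_pos_right _ p3).trans (Nat.le_mul_of_pos_right _ p5)
  have l3 : 3 ^ b ≤ n := e ▸ (Nat.le_mul_of_pos_left _ p2).trans (Nat.le_mul_of_pos_right _ p5)
  have l5 : 5 ^ c ≤ n := e ▸ Nat.le_mul_of_pos_left _ (Nat.mul_pos p2 p3)
  exact ⟨(Nat.pow_lt_pow_iff_right (by decide : 1 < 2)).1 (by omega),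
    (Nat.pow_lt_pow_iff_right (by decide : 1 < 3)).1 (by omega),
    (Nat.pow_lt_pow_iff_right (by decide : 1 < 5)).1 (by omega)⟩

theorem smooth_dvd {n : ℕ} (h0 : n ≠ 0) (h : ∀ r, r.Prime → r ∣ n → r ≤ 5) (hn : n ≤ 3072 ^ 2) :
    n ∣ 30 ^ 24 := by
  have e := smooth_eq h0 h
  obtain ⟨h2, h3, h5⟩ := exps e hn
  rw [e, show (30 : ℕ) = 2 * 3 * 5 from rfl, mul_pow, mul_pow]
  exact mul_dvd_mul (mul_dvd_mul (pow_dvd_pow _ (by omega)) (pow_dvd_pow _ (by omega)))
    (pow_dvd_pow _ (by omega))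

theorem part_le {L x r : ℕ} (hr : r.Prime) (h0 : x ≠ 0) (h : L ∣ x) (n : ℕ) :
    Nat.gcd L (r ^ n) ≤ r ^ x.factorization r := by
  obtain ⟨m, -, e⟩ := (Nat.dvd_prime_pow hr).1 (Nat.gcd_dvd_right L (r ^ n))
  have := (Nat.gcd_dvd_left L (r ^ n)).trans h
  rw [e] at this ⊢
  exact Nat.pow_le_pow_right hr.pos ((hr.pow_dvd_iff_le_factorization h0).1 this)

theorem amgm (a b c : ℕ) : 27 * (a * b * c) ≤ (a + b + c) ^ 3 := by
  zify
  have ha : (0 : ℤ) ≤ a := by positivity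
  have hb : (0 : ℤ) ≤ b := by positivity
  have hc : (0 : ℤ) ≤ c := by positivity
  have h1 := mul_nonneg ha (sq_nonneg ((b : ℤ) - c))
  have h2 := mul_nonneg hb (sq_nonneg ((c : ℤ) - a))
  have h3 := mul_nonneg hc (sq_nonneg ((a : ℤ) - b))
  have h4 := mul_nonneg (add_nonneg (add_nonneg ha hb) hc)
    (add_nonneg (add_nonneg (sq_nonneg ((a : ℤ) - b)) (sq_nonneg ((b : ℤ) - c))) (sq_nonneg ((c : ℤ) - a)))
  nlinarith

def ps : List ℕ := [17, 19, 23, 29, 31, 47, 53, 59, 71, 79, 89, 107, 127, 143, 149, 179, 191, 199, 239,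
  269, 299, 319, 323, 359, 383, 431, 449, 479, 499, 599, 647, 719, 767, 799, 809, 863, 899, 971, 1079,
  1151, 1199, 1249, 1279, 1349, 1439, 1457, 1499, 1619, 1727, 1919, 1943, 1999, 2047, 2159, 2249, 2399,
  2591, 2699, 2879, 2999, 3071]

def Pp (p : ℕ) : Prop := 13 ≤ p → 30 ^ 24 % (p + 1) = 0 → p % 2 ≠ 0 → p % 3 ≠ 0 → p % 5 ≠ 0 →
    p % 7 ≠ 0 → p ∈ ps

instance (p : ℕ) : Decidable (Pp p) := by unfold Pp; infer_instance

theorem mem_ps' : ∀ i < 48, ∀ j < 64, Pp (64 * i + j) := by decide +kernel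

theorem mem_ps (p : ℕ) (h : p < 3072) : Pp p := by
  have := mem_ps' (p / 64) (by omega) (p % 64) (by omega)
  rwa [Nat.div_add_mod] at this

/-- The least value of the class count. -/
def low (z L : ℕ) : ℕ := z + (z * Nat.gcd L (2 ^ 64) - 8 * z + 191) / 192 +
  (z * Nat.gcd L (3 ^ 64) - 3 * z + 71) / 72 + (z * Nat.gcd L (5 ^ 64) - z + 23) / 24

def Ok (p u : ℕ) : Prop := u ≤ p ^ 2 → 30 ^ 24 % (p ^ 2 + 1 - u) = 0 →
  (p ^ 4 - 1) * (p ^ 4 - p) * (p ^ 4 - p ^ 2) * (p ^ 4 - p ^ 3) %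
    ((p - 1) * ((p + 1) * Nat.lcm u (p ^ 2 + 1 - u))) = 0 →
  (p = 19 ∧ (p - 1) * ((p + 1) * Nat.lcm u (p ^ 2 + 1 - u)) % 160 = 0) ∨
    ∀ e < p, (p - 1) % e = 0 → p ≤ 2 * low ((p - 1) / e) (e * (p + 1) * Nat.lcm u (p ^ 2 + 1 - u))

instance (p u : ℕ) : Decidable (Ok p u) := by unfold Ok; infer_instance

theorem check : ∀ a < 24, ∀ b < 15, ∀ c < 10, 2 ^ a * 3 ^ b * 5 ^ c ≤ 3072 ^ 2 →
    ∀ p ∈ ps, Ok p (2 ^ a * 3 ^ b * 5 ^ c) := by decide +kernel

theorem jobNum4 : H70.R3.JobNum4 := by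
  rintro p z e u w x k hp h13 hz huw hx hu hw hs hG ⟨c₂, c₃, c₅, hk, h2, h3, h5⟩ hkp
  have z0 : 0 < z := Nat.pos_of_ne_zero fun h => by rw [h] at hz; omega
  have e2 : 2 ≤ e := by
    by_contra h
    have : z * e ≤ z * 1 := Nat.mul_le_mul_left _ (by omega)
    omega
  have ep : e < p := by
    have : 1 * e ≤ z * e := Nat.mul_le_mul_right _ z0
    omega
  have lu := Nat.le_of_dvd hx hu
  have lw := Nat.le_of_dvd hx hw
  have big : e * ((p + 1) * (p ^ 2 + 1)) ≤ 2 * x := by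
    rw [← huw, ← mul_assoc, mul_add]; omega
  have sm : ∀ r, r.Prime → r ∣ x → r ≤ 5 := by
    refine hs.resolve_right fun h => ?_
    have hx2 : x ≤ 2520 := by omega
    have b2 : 2 * ((p + 1) * (p ^ 2 + 1)) ≤ e * ((p + 1) * (p ^ 2 + 1)) := Nat.mul_le_mul_right _ e2
    have p14 : p < 14 := by
      by_contra h'
      have : 15 * 197 ≤ (p + 1) * (p ^ 2 + 1) := Nat.mul_le_mul (by omega) (by nlinarith)
      omega
    obtain rfl : p = 13 := by omega
    obtain rfl : e = 2 := by omega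
    obtain ⟨s, hs'⟩ := hu
    obtain ⟨t, ht⟩ := hw
    rcases h with rfl | rfl
    · omega
    · have hu' : u ∣ 90 := ⟨s, by nlinarith⟩
      have hw' : w ∣ 90 := ⟨t, by nlinarith⟩
      have : u ≤ 90 := by omega
      have : 80 ≤ u := by omega
      have e3 : w = 170 - u := by omega
      rw [e3] at hw'
      clear * - hu' hw' this
      have := Nat.le_of_dvd (by decide) hu'
      interval_cases u <;> omega
  have ex := smooth_eq hx.ne' sm
  set A := 2 ^ x.factorization 2 with hA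
  set B := 3 ^ x.factorization 3 with hB
  set C := 5 ^ x.factorization 5 with hC
  have s1 : 3 * A + 8 * B + 24 * C ≤ 288 * e := by
    refine Nat.le_of_mul_le_mul_left ?_ z0
    have : z * (3 * A + 8 * B + 24 * C) = 3 * (z * A) + 8 * (z * B) + 24 * (z * C) := by ring
    have : z * (288 * e) = 288 * (z * e) := by ring
    omega
  have s2 : x ≤ 1536 * e ^ 3 := by
    have k1 := (amgm (3 * A) (8 * B) (24 * C)).trans (Nat.pow_le_pow_left s1 3)
    have k2 : 27 * (3 * A * (8 * B) * (24 * C)) = 15552 * (A * B * C) := by ring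
    have k3 : (288 * e) ^ 3 = 15552 * (1536 * e ^ 3) := by ring
    rw [k2, k3, ← ex] at k1
    omega
  have hp3 : p < 3072 := by
    have k1 : (p + 1) * (p ^ 2 + 1) ≤ 3072 * e ^ 2 := by
      refine Nat.le_of_mul_le_mul_left ?_ (show 0 < e by omega)
      have : e * (3072 * e ^ 2) = 2 * (1536 * e ^ 3) := by ring
      omega
    have k2 : e ^ 2 ≤ p ^ 2 := Nat.pow_le_pow_left ep.le 2
    by_contra h
    have k3 : 3072 * (p ^ 2 + 1) ≤ (p + 1) * (p ^ 2 + 1) := Nat.mul_le_mul_right _ (by omega)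
    omega
  have pp : p ^ 2 < 3072 ^ 2 := Nat.pow_lt_pow_left hp3 (by decide)
  have u0 : u ≠ 0 := fun h => by rw [h, mul_zero, zero_dvd_iff] at hu; omega
  have w0 : w ≠ 0 := fun h => by rw [h, mul_zero, zero_dvd_iff] at hw; omega
  have nd : ∀ r, 1 < r → r < 13 → p % r ≠ 0 := fun r r1 r2 h =>
    ((Nat.dvd_prime hp).1 (Nat.dvd_of_mod_eq_zero h)).elim (by omega) (by omega)
  have hps : p ∈ ps := mem_ps p hp3 h13
    (Nat.mod_eq_zero_of_dvd (smooth_dvd (by omega) (fun r hr h => sm r hr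
      (h.trans (((Dvd.intro_left e rfl).mul_right u).trans hu))) (by omega)))
    (nd 2 (by decide) (by decide)) (nd 3 (by decide) (by decide)) (nd 5 (by decide) (by decide))
    (nd 7 (by decide) (by decide))
  have su : ∀ r, r.Prime → r ∣ u → r ≤ 5 := fun r hr h => sm r hr ((h.mul_left _).trans hu)
  have sw : ∀ r, r.Prime → r ∣ w → r ≤ 5 := fun r hr h => sm r hr ((h.mul_left _).trans hw)
  have eu := smooth_eq u0 su
  obtain ⟨a1, a2, a3⟩ := exps eu (by omega)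
  have ok := check _ a1 _ a2 _ a3 (by rw [← eu]; omega) p hps
  rw [← eu, Ok, show p ^ 2 + 1 - u = w by omega] at ok
  have hL : e * (p + 1) * Nat.lcm u w ∣ x := by
    rw [← Nat.lcm_mul_left]; exact Nat.lcm_dvd hu hw
  have p1 : p - 1 = z * e := by omega
  have hL' : (p - 1) * ((p + 1) * Nat.lcm u w) ∣ x * z := by
    rw [p1, show z * e * ((p + 1) * Nat.lcm u w) = e * (p + 1) * Nat.lcm u w * z by ring]
    exact Nat.mul_dvd_mul_right hL z
  rcases ok (by omega) (Nat.mod_eq_zero_of_dvd (smooth_dvd w0 sw (by omega)))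
    (Nat.mod_eq_zero_of_dvd (hL'.trans hG)) with ⟨h19, h160⟩ | h
  · exact ⟨h19, (Nat.dvd_of_mod_eq_zero h160).trans hL'⟩
  have k := h e ep (by rw [p1]; exact Nat.mul_mod_left _ _)
  rw [p1, Nat.mul_div_cancel _ (by omega), low] at k
  have g2 := Nat.mul_le_mul_left z (part_le Nat.prime_two hx.ne' hL 64)
  have g3 := Nat.mul_le_mul_left z (part_le Nat.prime_three hx.ne' hL 64)
  have g5 := Nat.mul_le_mul_left z (part_le Nat.prime_five hx.ne' hL 64)
  rw [← hA] at g2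
  rw [← hB] at g3
  rw [← hC] at g5
  exfalso
  generalize z * Nat.gcd _ (2 ^ 64) = t2 at k g2
  generalize z * Nat.gcd _ (3 ^ 64) = t3 at k g3
  generalize z * Nat.gcd _ (5 ^ 64) = t5 at k g5
  omega

end H37.R3Num4
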