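/- Tower RC, job LX: real elements of odd order centralise the 2-groups normalised by `x` and `T`. -/
import Cfsg.Agent.H52.RCSpec
import Cfsg.Agent.H1.Coprime2

set_option autoImplicit false

namespace H37.RcLX

open H52.RC Subgroup

universe u

theorem iter {G : Type u} [Group G] {x v d : G} (h : x⁻¹ * v * x = d * v) (c : Commute d x) (k : ℕ) :
    (x ^ k)⁻¹ * v * x ^ k = d ^ k * v := by
  induction k with
  | zero => simp
  | succ k ih =>
    calc (x ^ (k + 1))⁻¹ * v * x ^ (k + 1) = x⁻¹ * ((x ^ k)⁻¹ * v * x ^ k) * x := by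
          rw [pow_succ]; group
      _ = (x⁻¹ * d ^ k) * v * x := by rw [ih]; group
      _ = d ^ k * (x⁻¹ * v * x) := by rw [← (c.pow_left k).inv_right.eq]; group
      _ = d ^ (k + 1) * v := by rw [h, pow_succ]; group

theorem jobLX : JobLX.{u} := by
  intro KA _ G _ _ m hH x T Q ho _ ⟨hT, pT, _, c0, s, hs, si⟩ pQ xQ TQ
  obtain ⟨-, -, -, -, k5, -, -, k8, k9⟩ := KA G
  have := Fact.mk Nat.prime_two
  have p0 : IsPGroup 2 (T ⊓ C1 x : Subgroup G) := pT.to_le inf_le_left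
  have si' : s * x * s⁻¹ = x⁻¹ := si
  have si2 : s⁻¹ * x * s = x⁻¹ := by
    have : s * x⁻¹ * s⁻¹ = x := by rw [← inv_inv (s * x⁻¹ * s⁻¹)]; simp [mul_assoc] at si' ⊢; group; simpa [mul_assoc] using congrArg (·⁻¹) si'
    calc s⁻¹ * x * s = s⁻¹ * (s * x⁻¹ * s⁻¹) * s := by rw [this]
      _ = x⁻¹ := by group
  have s2 : s ^ 2 ∈ T ⊓ C1 x := by
    refine ⟨pow_mem hs 2, mem_C1.2 ?_⟩
    have : s ^ 2 * x * (s ^ 2)⁻¹ = x := by
      calc s ^ 2 * x * (s ^ 2)⁻¹ = s * (s * x * s⁻¹) * s⁻¹ := by rw [pow_two]; group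
        _ = (s * x * s⁻¹)⁻¹ := by rw [si']; group; simpa [mul_assoc] using congrArg (·⁻¹) si'
        _ = x := by rw [si', inv_inv]
    exact mul_inv_eq_iff_eq_mul.1 this
  have sn : ∀ a ∈ T ⊓ C1 x, s * a * s⁻¹ ∈ T ⊓ C1 x := fun a ha => by
    refine ⟨T.mul_mem (T.mul_mem hs ha.1) (T.inv_mem hs), mem_C1.2 ?_⟩
    have c := (mem_C1.1 ha.2).inv_right.eq
    calc s * a * s⁻¹ * x = s * (a * (s⁻¹ * x * s)) * s⁻¹ := by group
      _ = s * ((s⁻¹ * x * s) * a) * s⁻¹ := by rw [si2, c]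
      _ = x * (s * a * s⁻¹) := by group
  have key : ∀ v ∈ Q, (∀ a ∈ T ⊓ C1 x, Commute a v) → Commute v x := fun v hv hc => by
    have one : ∀ t : G, t ^ 2 ∈ T ⊓ C1 x → t ∈ normalizer (Q : Set G) →
        (∀ a ∈ T ⊓ C1 x, t * a * t⁻¹ ∈ T ⊓ C1 x) → Commute (t⁻¹ * (v * t * v⁻¹)) x := by
      intro t t2 tQ tn
      have i : H52.RC.Inv t (t⁻¹ * (v * t * v⁻¹)) := inv_of_sq (by
        rw [conj_pow, ← (hc _ t2).eq, mul_inv_cancel_right])
      have e : t⁻¹ * (v * t * v⁻¹) = t⁻¹ * v * t⁻¹⁻¹ * v⁻¹ := by group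
      have wQ : t⁻¹ * (v * t * v⁻¹) ∈ Q := by
        rw [e]; exact mul_mem ((mem_normalizer_iff.1 (inv_mem tQ) v).1 hv) (inv_mem hv)
      generalize hw : t⁻¹ * (v * t * v⁻¹) = w at i wQ
      have le : T ⊓ C1 x ≤ C1 w := fun a ha => by
        refine mem_C1.2 ?_
        have c1 : Commute a (t⁻¹ * v * t) := by
          have c := (hc _ (tn a ha)).eq
          calc a * (t⁻¹ * v * t) = t⁻¹ * (t * a * t⁻¹ * v) * t := by group
            _ = t⁻¹ * v * t * a := by rw [c]; group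
        have := c1.mul_right (hc a ha).inv_right
        rwa [show t⁻¹ * v * t * v⁻¹ = w by rw [← hw]; group] at this
      by_cases z : w ∈ center G
      · exact (mem_center_iff.1 z x).symm
      have sy := (k9 (C1 w) _ p0 le).2 (by rw [hH w ⟨t, i⟩ z, c0])
      obtain ⟨k, hk, h⟩ := (k8 _ _ sy).2.2 (zpowers w) (pQ.to_le (zpowers_le.2 wQ))
        (zpowers_le.2 (mem_C1.2 (Commute.refl w)))
      have := h w (mem_zpowers w)
      rw [(mem_C1.1 hk).eq, mul_inv_cancel_right] at this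
      exact mem_C1.1 this.2
    have w1 := one s s2 (TQ hs) sn
    have w2 := one (s * x) (by
      rw [show (s * x) ^ 2 = s ^ 2 * (s⁻¹ * x * s) * x by rw [pow_two, pow_two]; group, si2,
        inv_mul_cancel_right]
      exact s2) (mul_mem (TQ hs) xQ) fun a ha => by
        rw [show s * x * a * (s * x)⁻¹ = s * (x * a) * x⁻¹ * s⁻¹ by group, ← (mem_C1.1 ha.2).eq]
        simpa only [← mul_assoc, mul_inv_cancel_right] using sn a ha
    have e : x⁻¹ * v * x * v⁻¹ = (s⁻¹ * (v * s * v⁻¹))⁻¹ * ((s * x)⁻¹ * (v * (s * x) * v⁻¹)) := by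
      have c := w1.inv_right.eq
      generalize hw : s⁻¹ * (v * s * v⁻¹) = w at c ⊢
      calc x⁻¹ * v * x * v⁻¹ = w⁻¹ * (w * x⁻¹) * v * x * v⁻¹ := by group
        _ = w⁻¹ * (x⁻¹ * (w * v) * x * v⁻¹) := by rw [c]; group
        _ = w⁻¹ * ((s * x)⁻¹ * (v * (s * x) * v⁻¹)) := by rw [← hw]; group
    have dx : Commute (x⁻¹ * v * x * v⁻¹) x := by rw [e]; exact w1.inv_left.mul_left w2
    have dQ : x⁻¹ * v * x * v⁻¹ ∈ Q := by
      have := (mem_normalizer_iff.1 (inv_mem xQ) v).1 hv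
      rw [inv_inv] at this
      exact mul_mem this (inv_mem hv)
    have it := iter (x := x) (v := v) (inv_mul_cancel_right _ v).symm dx (orderOf x)
    rw [pow_orderOf_eq_one, inv_one, one_mul, mul_one, right_eq_mul] at it
    have d1 := eq_one_of_P2 ((k5 Q).1 pQ _ dQ) (ho.of_dvd_nat (orderOf_dvd_of_pow_eq_one it))
    calc v * x = x * (x⁻¹ * v * x * v⁻¹) * v := by group
      _ = x * v := by rw [d1, mul_one]
  have := H1.thompson_pq (P := T ⊓ C1 x) (Q := zpowers x) p0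
    (by rw [Nat.card_zpowers]; exact Nat.coprime_two_right.2 ho)
    (le_centralizer_iff.1 (zpowers_le.2 fun a ha => (mem_C1.1 ha.2).eq)) _ Q rfl pQ
    (inf_le_left.trans TQ) (zpowers_le.2 xQ)
    (le_centralizer_iff.1 (zpowers_le.2 fun v hv => (key v hv.1 fun a ha => hv.2 a ha).eq))
  exact fun q hq => this (mem_zpowers x) q hq

end H37.RcLX
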