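import Cfsg.Agent.H30.SQSpec

/-! Tower SQ (S4132): slot `P4C`. -/

set_option autoImplicit false

namespace H37.SQP4C

open Subgroup H30.SQ

universe u

variable {G : Type*} [Group G] [Finite G]

theorem relIndex_dvd {S : Set G} {P : Subgroup G} (h : P ≤ normalizer S) :
    P.relIndex (centralizer S) ∣ P.index := by
  rw [← relIndex_subgroupOf (centralizer_le_normalizer S)]
  exact (H4.relIndex_dvd_index_of_normal_right _ _).trans (relIndex_dvd_index_of_le h)

theorem mem_norm {T : Subgroup G} {z g : G} (h : ∀ t ∈ WS T z, g * t * g⁻¹ ∈ T) :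
    g ∈ normalizer (WS T z) :=
  mem_normalizer_fintype fun t ht => ⟨h t ht, ht.2.trans (isConj_iff.2 ⟨g, rfl⟩)⟩

theorem jobP4C : JobP4C.{u} := by
  intro G _ _ T z h4 hT ho x hx
  have := Fact.mk Nat.prime_two
  have h1 := h4 x (by rwa [orderOf_coe])
  rw [H18.index_centralizer_coe]
  have hW : closure (WS T z) ≤ T := (closure_le _).2 fun _ ht => ht.1
  have hX : closure (WS T z) ≤ centralizer ({(x : G)} : Set G) := (closure_le _).2 fun t ht =>
    mem_centralizer_singleton_iff.2 (mem_centralizer_iff.1 x.2 t ht)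
  obtain ⟨P', hP'⟩ := ((hT.to_le hW).comap_subtype (K := centralizer ({(x : G)} : Set G))).exists_le_sylow
  set P := (P' : Subgroup (centralizer ({(x : G)} : Set G))).map (Subgroup.subtype _) with hP
  have p2 : IsPGroup 2 P := P'.isPGroup'.map _
  have pX : P ≤ centralizer ({(x : G)} : Set G) := map_subtype_le _
  have po : ¬ 2 ∣ P.relIndex (centralizer ({(x : G)} : Set G)) := by
    rw [relIndex, hP, subgroupOf, comap_map_eq_self_of_injective (subtype_injective _)]
    exact P'.not_dvd_index
  obtain ⟨g, -, hg⟩ := syl_conj le_top hT (by rwa [relIndex_top_right]) p2 le_top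
  have gN : g ∈ normalizer (WS T z) := mem_norm fun t ht =>
    hg t ⟨⟨t, hX (subset_closure ht)⟩, hP' (subset_closure ht), rfl⟩
  have pN : P ≤ normalizer (WS T z) := fun s hs => by
    have : g * s * g⁻¹ ∈ normalizer (WS T z) := mem_norm fun t ht =>
      mul_mem (mul_mem (hg s hs) ht.1) (inv_mem (hg s hs))
    simpa [mul_assoc] using mul_mem (mul_mem (inv_mem gN) this) gN
  intro k
  have h2 := (k.trans (relIndex_dvd_of_le_left _ pX)).trans (relIndex_dvd pN)
  rw [← relIndex_mul_index pX] at h2
  exact h1 ((Nat.Coprime.pow_left 2 ((Nat.Prime.coprime_iff_not_dvd Nat.prime_two).2 po)).dvd_of_dvd_mul_left h2)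

end H37.SQP4C
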