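/- STD-R (S3323, blueprints/STDR.md), job Semi: `Out (Sz q)` has odd order, in coordinates. -/
import Cfsg.Agent.H65.SRAux

set_option autoImplicit false
set_option linter.unusedSectionVars false

open Subgroup H63.Oc H64.SG H65.SR
open scoped commutatorElement

universe u v

namespace H37.SR

section Fld
variable {K : Type*} [Field K] [CharP K 2] [Finite K] (T : TF K)
include T

theorem aut_odd (φ : K →+* K) (h : φ * φ = 1) : φ = 1 := by
  have sj : Function.Surjective fun ψ : K →+* K => ψ * ψ := fun ψ => by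
    letI := ZMod.algebra K 2
    let s : K →ₐ[ZMod 2] K := AlgHom.mk ψ fun r => congrArg (fun f : ZMod 2 →+* K => f r)
      (Subsingleton.elim (ψ.comp (algebraMap (ZMod 2) K)) (algebraMap (ZMod 2) K))
    obtain ⟨i, hi⟩ := (FiniteField.bijective_frobeniusAlgHom_pow (ZMod 2) K).2 s
    refine ⟨T.σ ^ i.1, RingHom.ext fun x => ?_⟩
    have h1 := DFunLike.congr_fun hi x
    simp only [AlgHom.coe_pow, FiniteField.coe_frobeniusAlgHom, ZMod.card] at h1
    have h2 : ∀ k : ℕ, ((T.σ * T.σ) ^ k) x = (· ^ 2)^[k] x := fun k => by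
      induction k with
      | zero => rfl
      | succ k ih => rw [pow_succ', Function.iterate_succ_apply', ← ih]; exact T.sq _
    show (T.σ ^ i.1 * T.σ ^ i.1) x = _
    rw [← (Commute.refl T.σ).mul_pow, h2, h1]
    rfl
  haveI : Finite (K →+* K) := DFunLike.finite _
  exact Finite.injective_iff_surjective.2 sj (h.trans (mul_one 1).symm)

end Fld

section Sz
variable {K : Type*} [Field K] [CharP K 2] [Finite K] {T : TF K} {Γ : Type*} [Group Γ] [Finite Γ]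

variable (T) in
/-- the Suzuki group in coordinates -/
structure Sz (C U : Subgroup Γ) (u : K → K → Γ) (h : Kˣ →* Γ) (n : Γ) : Prop where
  mul : ∀ b a b' a', u b a * u b' a' = u (b + b') (a + a' + b * T.σ b')
  inj : ∀ {b a b' a'}, u b a = u b' a' → b = b' ∧ a = a'
  memU : ∀ x, x ∈ U ↔ ∃ b a, x = u b a
  conj : ∀ (k : Kˣ) b a, h k * u b a * (h k)⁻¹ = u (k * b) (k * T.σ k * a)
  nn : n * n = 1
  nh : ∀ k, n * h k * n = (h k)⁻¹
  hC : ∀ k, h k ∈ C
  nC : n ∈ C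
  bru : ∀ g ∈ C, (∃ x ∈ U, ∃ k, g = x * h k) ∨ ∃ x ∈ U, ∃ k, ∃ y ∈ U, g = x * h k * n * y
  opp : ∀ x ∈ U, ∀ y ∈ U, ∀ k, n * x * n = y * h k → x = 1

namespace Sz

variable {C U : Subgroup Γ} {u : K → K → Γ} {h : Kˣ →* Γ} {n g x : Γ} (S : Sz T C U u h n)
include S

theorem mem (b a : K) : u b a ∈ U := (S.memU _).2 ⟨b, a, rfl⟩

theorem zero : u 0 0 = 1 := left_eq_mul.1 ((S.mul 0 0 0 0).trans (by simp)).symm

theorem sq (b a : K) : u b a * u b a = u 0 (b * T.σ b) := by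
  rw [S.mul, CharTwo.add_self_eq_zero, CharTwo.add_self_eq_zero, zero_add]

theorem split (b a : K) : u b a = u b 0 * u 0 a := by rw [S.mul]; simp

theorem two : IsPGroup 2 U := two_of_is2 fun y hy => by
  obtain ⟨b, a, rfl⟩ := (S.memU _).1 hy
  exact ⟨2, by rw [show 2 ^ 2 = 2 * 2 from rfl, pow_mul, pow_two (u b a), S.sq, pow_two, S.sq,
    zero_mul, S.zero]⟩

theorem hU (k : Kˣ) : h k ∈ Ns U := mem_ns_of fun y hy => by
  obtain ⟨b, a, rfl⟩ := (S.memU _).1 hy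
  exact S.conj k b a ▸ S.mem _ _

theorem hinj {k l : Kˣ} (e : h k = h l) : k = l :=
  Units.ext (by
    have := S.conj l 1 0
    rw [← e, S.conj] at this
    simpa using (S.inj this).1)

theorem ninv : n⁻¹ = n := inv_eq_of_mul_eq_one_right S.nn

theorem nU : n ∉ Ns U := fun e => one_ne_zero (S.inj ((S.opp _ (S.mem 1 0) _
  (S.ninv ▸ cj_mem e (S.mem 1 0) :) 1 (by rw [map_one, mul_one])).trans S.zero.symm)).1

theorem opp' (hx : x ∈ U) (e : n * x * n ∈ U) : x = 1 := S.opp x hx _ e 1 (by rw [map_one, mul_one])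

theorem small (hg : g ∈ C) (e : g ∈ Ns U) : ∃ x ∈ U, ∃ k, g = x * h k :=
  (S.bru g hg).resolve_right fun ⟨x, hx, k, y, hy, l⟩ => S.nU (by
    rwa [l, mul_mem_cancel_right (le_normalizer hy),
      mul_mem_cancel_left (mul_mem (le_normalizer hx) (S.hU k))] at e)

variable (hC : g ∈ Ns C) (hU : g ∈ Ns U) {k : Kˣ} (hn : g * n * g⁻¹ = h k * n)
include hC hU hn

theorem tor (j : Kˣ) : ∃ l, g * h j * g⁻¹ = h l := by
  obtain ⟨x, hx, l, e⟩ := S.small (cj_mem hC (S.hC j))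
    (mul_mem (mul_mem hU (S.hU j)) (inv_mem hU))
  have h1 : h k * n * (x * h l) * (h k * n) = (x * h l)⁻¹ := by
    rw [← e, ← hn, conj_mul, conj_mul, S.nh, conj_inv]
  have h2 : n * x * n = (h (k * l))⁻¹ * x⁻¹ * h (k * l) := by
    calc _ = (h k)⁻¹ * (h k * n * (x * h l) * (h k * n)) * (n * (h l * h k) * n)⁻¹ * (n * n) := by
            group
      _ = _ := by rw [h1, ← map_mul, S.nh, S.nn, mul_comm l k, mul_comm k l, map_mul]; group
  rw [S.opp' hx (h2 ▸ cj_mem' (S.hU _) (inv_mem hx)), one_mul] at e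
  exact ⟨l, e⟩

theorem base {s : K} (hs : T.σ s ≠ s) (h2 : g * g ∈ Cs C) (UC : U ≤ C) : g ∈ Cs C := by
  have g2 : ∀ y ∈ C, g * (g * y * g⁻¹) * g⁻¹ = y := fun y hy => by
    exact Eq.trans (by group) (cj_eq_of_cs h2 hy)
  choose α hα using S.tor hC hU hn
  choose f v hf using fun b => (S.memU _).1 (cj_mem hU (S.mem b 0))
  have hz : ∀ b, g * u 0 (b * T.σ b) * g⁻¹ = u 0 (f b * T.σ (f b)) := fun b => by
    rw [← S.sq b 0, ← conj_mul, hf, S.sq]
  have hg : ∀ b a, ∃ a', g * u b a * g⁻¹ = u (f b) a' := fun b a => by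
    obtain ⟨c, rfl⟩ := nu_surj T a
    exact ⟨_, by rw [S.split, ← conj_mul, hf, hz, S.mul, add_zero]⟩
  have fa : ∀ b c, f (b + c) = f b + f c := fun b c => by
    obtain ⟨a, e⟩ := hg (b + c) (0 + 0 + b * T.σ c)
    rw [← S.mul, ← conj_mul, hf, hf, S.mul] at e
    exact (S.inj e).1.symm
  have fm : ∀ (j : Kˣ) b, f (j * b) = α j * f b ∧ v (j * b) = α j * T.σ (α j) * v b := fun j b => by
    have := hf (j * b)
    rw [← mul_zero ((j : K) * T.σ j), ← S.conj, ← conj_mul, ← conj_mul, ← conj_inv, hα, hf,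
      S.conj] at this
    exact ⟨(S.inj this).1.symm, (S.inj this).2.symm⟩
  have ff : ∀ b, f (f b) = b := fun b => by
    obtain ⟨a, e⟩ := hg (f b) (v b)
    rw [← hf, g2 _ (UC (S.mem _ _))] at e
    exact (S.inj e).1.symm
  have f0 : f 0 = 0 := left_eq_add.1 ((congrArg f (add_zero 0).symm).trans (fa 0 0))
  have f1 : f 1 ≠ 0 := fun e => one_ne_zero ((ff 1).symm.trans (by rw [e, f0]))
  have fu : ∀ j : Kˣ, f j * (f 1)⁻¹ = α j := fun j => by
    rw [← mul_one (j : K), (fm j 1).1, mul_inv_cancel_right₀ f1]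
  let φ : K →+* K :=
    { toFun := fun b => f b * (f 1)⁻¹
      map_one' := mul_inv_cancel₀ f1
      map_mul' := fun b c => by
        rcases eq_or_ne b 0 with rfl | nb
        · simp [f0]
        · rw [show b = Units.mk0 b nb from rfl, (fm _ c).1, fu, mul_assoc]
      map_zero' := by rw [f0, zero_mul]
      map_add' := fun b c => by rw [fa, add_mul] }
  have hφ : φ = 1 := aut_odd T φ (RingHom.ext fun b => by
    rcases eq_or_ne b 0 with rfl | nb
    · simp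
    · have e := g2 _ (S.hC (Units.mk0 b nb))
      rw [hα, hα] at e
      exact (congrArg φ (fu (Units.mk0 b nb))).trans ((fu _).trans (congrArg Units.val (S.hinj e))))
  have fc : ∀ b, f b = b * f 1 := fun b => (mul_inv_eq_iff_eq_mul₀ f1).1 (DFunLike.congr_fun hφ b)
  have fid : ∀ b, f b = b := fun b => by
    have := ff 1
    rw [fc, mul_self_eq_one_iff, CharTwo.neg_eq, or_self] at this
    rw [fc, this, mul_one]
  have αid : ∀ j, α j = j := fun j => Units.ext (by rw [← fu, fid, fid, inv_one, mul_one])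
  have cz : ∀ a, g * u 0 a * g⁻¹ = u 0 a := fun a => by
    obtain ⟨c, rfl⟩ := nu_surj T a
    rw [hz, fid]
  have va : ∀ b c, v (b + c) = v b + v c := fun b c => by
    have e : g * _ * g⁻¹ = g * _ * g⁻¹ := congrArg (fun y => g * y * g⁻¹) (S.mul b 0 c 0)
    rw [← conj_mul, hf, hf, S.split (b + c), ← conj_mul, hf, cz, S.mul, S.mul] at e
    have := (S.inj e).2
    simp only [fid, map_zero, mul_zero, add_zero, zero_add, add_left_inj] at this
    exact this.symm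
  have v0 := na2 hs (AddMonoidHom.mk' v va) (RingHom.id K) fun μ hμ e => by
    simpa [αid] using (fm (Units.mk0 μ hμ) e).2
  have cU : ∀ x ∈ U, g ∈ Cz x := fun x hx => by
    obtain ⟨b, a, rfl⟩ := (S.memU _).1 hx
    rw [mem_Cz, ← mul_inv_eq_iff_eq_mul, S.split, ← conj_mul, hf, cz, fid,
      show v b = 0 from DFunLike.congr_fun v0 b]
  have cH : ∀ j, g ∈ Cz (h j) := fun j => by rw [mem_Cz, ← mul_inv_eq_iff_eq_mul, hα, αid]
  have cn : g ∈ Cz n := by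
    have e := g2 n S.nC
    rw [hn, ← conj_mul, hn, hα, αid, ← mul_assoc, ← map_mul, mul_eq_right, ← h.map_one] at e
    have e' : (k : K) * k = 1 := congrArg Units.val (S.hinj e)
    rw [mul_self_eq_one_iff, CharTwo.neg_eq, or_self] at e'
    rw [mem_Cz, ← mul_inv_eq_iff_eq_mul, hn, show k = 1 from Units.ext e', map_one, one_mul]
  have sy : ∀ {y}, g ∈ Cz y → y ∈ Cz g := fun e => mem_Cz.2 (mem_Cz.1 e).symm
  refine mem_Cs.2 fun y hy => mem_Cz.1 ?_
  rcases S.bru y hy with ⟨x, hx, j, rfl⟩ | ⟨x, hx, j, w, hw, rfl⟩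
  · exact mul_mem (sy (cU x hx)) (sy (cH j))
  · exact mul_mem (mul_mem (mul_mem (sy (cU x hx)) (sy (cH j))) (sy cn)) (sy (cU w hw))

omit hC hU hn in
theorem ind {s : K} (hs : T.σ s ≠ s) (UC : U ≤ C) (r : ℕ) : ∀ g ∈ Ns C, g ∈ Ns U →
    (∃ k, g * n * g⁻¹ = h k * n) → g ^ 2 ^ r = 1 → g ∈ Cs C := by
  induction r with
  | zero => exact fun g _ _ _ e => by rw [pow_zero, pow_one] at e; exact e ▸ one_mem _
  | succ r ih =>
    rintro g hC hU ⟨k, hn⟩ e
    obtain ⟨l, hl⟩ := S.tor hC hU hn k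
    refine S.base hC hU hn hs (ih _ (mul_mem hC hC) (mul_mem hU hU) ⟨l * k, ?_⟩
      (by rw [← pow_two, ← pow_mul, ← pow_succ', e])) UC
    calc _ = g * (g * n * g⁻¹) * g⁻¹ := by group
      _ = _ := by rw [hn, ← conj_mul, hl, hn, map_mul, mul_assoc]

omit hn in
theorem main {s : K} (hs : T.σ s ≠ s) (UC : U ≤ C) (h2 : Is2 g) : ∃ x ∈ U, g * x ∈ Cs C := by
  rcases S.bru _ (cj_mem hC S.nC) with ⟨x, hx, k, e⟩ | ⟨x, hx, k, y, hy, e⟩
  · refine (S.nU ?_).elim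
    have := mul_mem (mul_mem (inv_mem hU) (e ▸ mul_mem (le_normalizer hx) (S.hU k))) hU
    simpa [mul_assoc] using this
  have e1 : x⁻¹ * g * n * (x⁻¹ * g)⁻¹ = h k * n * (y * x) := by
    calc _ = x⁻¹ * (g * n * g⁻¹) * x := by group
      _ = _ := by rw [e]; group
  have e2 : h k * n * (y * x) * (h k * n * (y * x)) = 1 := by
    rw [← e1, conj_mul, S.nn, mul_one, mul_inv_cancel]
  have e3 : n * (y * x) * n = (h k)⁻¹ * (y * x)⁻¹ * h k := by
    calc _ = (h k)⁻¹ * (h k * n * (y * x) * (h k * n * (y * x))) * (y * x)⁻¹ * (n * h k * n)⁻¹ *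
            (n * n) := by group
      _ = _ := by rw [e2, S.nh, S.nn]; group
  rw [S.opp' (mul_mem hy hx) (e3 ▸ cj_mem' (S.hU k) (inv_mem (mul_mem hy hx))), mul_one] at e1
  obtain ⟨r, hr⟩ := h2
  obtain ⟨r', hr'⟩ := is2_of_mem (two_sup (X := zpowers g) (two_of_is2 fun y ⟨m, l⟩ => ⟨r, by
      rw [← l, ← zpow_natCast, ← zpow_mul, mul_comm, zpow_mul, zpow_natCast, hr, one_zpow]⟩)
    S.two (zpowers_le.2 hU)) (mul_mem (mem_sup_right (inv_mem hx)) (mem_sup_left (mem_zpowers g)))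
  refine ⟨_, cj_mem' hU (inv_mem hx), ?_⟩
  rw [show g * (g⁻¹ * x⁻¹ * g) = x⁻¹ * g by group]
  exact S.ind hs UC r' _ (mul_mem (inv_mem (le_normalizer (UC hx))) hC)
    (mul_mem (inv_mem (le_normalizer hx)) hU) ⟨k, e1⟩ hr'

end Sz

end Sz

section Pf
variable {G Γ : Type*} [Group G] [Group Γ] {N X : Subgroup G} {p : N →* Γ} {a b : G}

open Classical in
/-- a homomorphism on a subgroup as a function on the whole group -/
noncomputable def pf (p : N →* Γ) (g : G) : Γ := if h : g ∈ N then p ⟨g, h⟩ else 1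

/-- the image of a subgroup -/
abbrev im (p : N →* Γ) (X : Subgroup G) : Subgroup Γ := (X.subgroupOf N).map p

theorem pf_eq (h : a ∈ N) : pf p a = p ⟨a, h⟩ := dif_pos h

theorem pf_mul (ha : a ∈ N) (hb : b ∈ N) : pf p (a * b) = pf p a * pf p b := by
  rw [pf_eq ha, pf_eq hb, pf_eq (mul_mem ha hb), ← map_mul]; rfl

theorem pf_inv (ha : a ∈ N) : pf p a⁻¹ = (pf p a)⁻¹ := by
  rw [pf_eq ha, pf_eq (inv_mem ha), ← map_inv]; rfl

theorem pf_pow (ha : a ∈ N) (n : ℕ) : pf p (a ^ n) = pf p a ^ n := by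
  rw [pf_eq ha, pf_eq (pow_mem ha n), ← map_pow]; rfl

theorem pf_one : pf p (1 : G) = 1 := (pf_eq (one_mem _)).trans p.map_one

theorem pf_conj (ha : a ∈ N) (hb : b ∈ N) : pf p (a * b * a⁻¹) = pf p a * pf p b * (pf p a)⁻¹ := by
  rw [pf_mul (mul_mem ha hb) (inv_mem ha), pf_mul ha hb, pf_inv ha]

theorem pf_mem (hX : X ≤ N) (ha : a ∈ X) : pf p a ∈ im p X := ⟨⟨a, hX ha⟩, ha, (pf_eq _).symm⟩

theorem of_im {γ : Γ} (h : γ ∈ im p X) : ∃ a ∈ X, pf p a = γ :=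
  have ⟨a, ha, e⟩ := h
  ⟨a, ha, (pf_eq a.2).trans e⟩

theorem pf_ns [Finite Γ] (ha : a ∈ N) (hX : X ≤ N) (e : a ∈ Ns X) : pf p a ∈ Ns (im p X) :=
  mem_ns_of fun γ hγ => by
    obtain ⟨x, hx, rfl⟩ := of_im hγ
    exact pf_conj (p := p) ha (hX hx) ▸ pf_mem hX (cj_mem e hx)

end Pf

section Job
variable {K : Type*} [Field K] [CharP K 2] {T : TF K} {G : Type*} [Group G] [Finite G]
  {A : AD T G} {g : G}

/-- the characteristic subgroups of `C` -/
theorem nC (b : BC A.toCS) (hg : g ∈ Ns A.C) {X : Subgroup (Co T)}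
    (hX : X ∈ [sZ T, sV T, sR T, sQ T]) : g ∈ Ns (A.im X) := mem_ns_of fun _ ⟨c, hc, e⟩ => by
  obtain ⟨c', hc', k⟩ := b.aut (A.C.normalizerMonoidHom ⟨g, hg⟩) X hX c hc
  exact e ▸ ⟨c', hc', (congrArg Subtype.val k).symm⟩

end Job

theorem jobSemi : JobSemi.{u, v} := fun _ K _ _ _ T G _ _ A _ hK lb g hC hU h2 => by
  have b := lb.bc
  obtain ⟨s, hs⟩ := exists_s (T := T) hK
  have CN : A.C ≤ Ns (A.im (sQ T)) := lb.CN (by simp)
  have gN := nC b hC (X := sQ T) (by simp)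
  have ιN : ∀ c, A.ι c ∈ Ns (A.im (sQ T)) := fun c => CN (A.ι_mem c)
  have hN : ∀ p, A.h0 p ∈ Ns (A.im (sQ T)) := fun p => CN (A.h0_mem p)
  have nN := CN A.n8_mem
  have SN := (S_le_C A).trans CN
  set p := QuotientGroup.mk' ((A.im (sQ T)).subgroupOf (Ns (A.im (sQ T))))
  have ker : ∀ a ∈ Ns (A.im (sQ T)), pf p a = 1 ↔ a ∈ A.im (sQ T) := fun a ha => by
    rw [pf_eq ha]; exact QuotientGroup.eq_one_iff _
  have eq : ∀ a ∈ Ns (A.im (sQ T)), ∀ b ∈ Ns (A.im (sQ T)), pf p a = pf p b ↔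
      a * b⁻¹ ∈ A.im (sQ T) := fun a ha b hb => by
    rw [← ker _ (mul_mem ha (inv_mem hb)), pf_mul ha (inv_mem hb), pf_inv hb, mul_inv_eq_one]
  have eqι : ∀ c d, pf p (A.ι c) = pf p (A.ι d) ↔ c.b8 = d.b8 ∧ c.a8 = d.a8 := fun c d => by
    rw [eq _ (ιN c) _ (ιN d), ← map_inv, ← map_mul, ι_mem_im, mem_sQ, Co.mul_b8, Co.mul_a8,
      Co.inv_b8, Co.inv_a8]
    constructor <;> rintro ⟨h1, h2⟩ <;> grind
  let E : T0 T ≃* Kˣ := MulEquiv.ofBijective ((MonoidHom.snd _ _).comp (T0 T).subtype)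
    ((Function.bijective_iff_existsUnique _).2 b.T0_snd)
  have hE : ∀ k, (E.symm k).1.2 = k := fun k => E.apply_symm_apply k
  let H : Kˣ →* _ := MonoidHom.mk' (fun k => pf p (A.h0 (E.symm k))) fun k l => by
    rw [map_mul, map_mul, pf_mul (hN _) (hN _)]
  have S : Sz T (im p A.C) (im p A.S) (fun b a => pf p (A.ι (uu T b a))) H (pf p A.n8) := by
    refine ⟨fun b a b' a' => ?_, fun e => (eqι _ _).1 e, fun x => ⟨fun hx => ?_, ?_⟩,
      fun k b a => ?_, by rw [← pf_mul nN nN, A.n8_sq, pf_one], fun k => ?_,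
      fun k => pf_mem CN (A.h0_mem _), pf_mem CN A.n8_mem, fun γ hγ => ?_,
      fun x hx y hy k e => ?_⟩
    · rw [← pf_mul (ιN _) (ιN _), ← map_mul, eqι]
      exact ⟨rfl, rfl⟩
    · obtain ⟨_, ⟨c, rfl⟩, rfl⟩ := of_im hx
      exact ⟨c.b8, c.a8, (eqι _ _).2 ⟨rfl, rfl⟩⟩
    · rintro ⟨b, a, rfl⟩
      exact pf_mem SN ⟨_, rfl⟩
    · show pf p _ * _ * (pf p _)⁻¹ = _
      rw [← pf_conj (hN _) (ιN _), A.h0_conj, eqι, dg_b8, dg_a8, hE]
      exact ⟨rfl, rfl⟩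
    · show _ * pf p _ * _ = (pf p _)⁻¹
      rw [← pf_mul nN (hN _), ← pf_mul (mul_mem nN (hN _)) nN, A.n8_h0, pf_inv (hN _)]
    · obtain ⟨x, hx, rfl⟩ := of_im hγ
      rcases (b.bruhat x).1 hx with ⟨c, q, rfl⟩ | ⟨c, q, d, -, rfl⟩
      · exact .inl ⟨_, pf_mem SN ⟨c, rfl⟩, E q, by
          rw [pf_mul (ιN _) (hN _)]; exact congrArg (fun q => _ * pf p (A.h0 q))
            (E.symm_apply_apply q).symm⟩
      · refine .inr ⟨_, pf_mem SN ⟨c, rfl⟩, E q, _, pf_mem SN ⟨d, rfl⟩, ?_⟩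
        rw [pf_mul (mul_mem (mul_mem (ιN _) (hN _)) nN) (ιN _), pf_mul (mul_mem (ιN _) (hN _)) nN,
          pf_mul (ιN _) (hN _)]
        exact congrArg (fun q => _ * pf p (A.h0 q) * _ * _) (E.symm_apply_apply q).symm
    · obtain ⟨_, ⟨c, rfl⟩, rfl⟩ := of_im hx
      obtain ⟨_, ⟨d, rfl⟩, rfl⟩ := of_im hy
      rw [(eqι c (uu T c.b8 c.a8)).2 ⟨rfl, rfl⟩] at e ⊢
      by_contra n
      obtain ⟨u', -, u'', -, q, l⟩ := A.rank8 (uu T c.b8 c.a8) (by simp [uu])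
        fun k => n (by rw [k, map_one, pf_one])
      change _ = _ * pf p _ at e
      rw [← pf_mul nN (ιN _), ← pf_mul (mul_mem nN (ιN _)) nN, ← pf_mul (ιN _) (hN _),
        eq _ (mul_mem (mul_mem nN (ιN _)) nN) _ (mul_mem (ιN _) (hN _)), l] at e
      obtain ⟨w, -, e⟩ := e
      exact b.sep u' q u'' (w * d) (E.symm k)
        (by rw [A.ι.map_mul w d, mul_assoc (A.ι w), e, inv_mul_cancel_right])
  obtain ⟨r, hr⟩ := h2
  obtain ⟨_, hx', e⟩ := S.main (pf_ns gN CN hC) (pf_ns gN SN hU) hs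
    (map_mono (subgroupOf_mono _ (S_le_C A))) ⟨r, by rw [← pf_pow gN, hr, pf_one]⟩
  obtain ⟨x, hx, rfl⟩ := of_im hx'
  have hm := mul_mem gN (SN hx)
  refine ⟨x, hx, hm, fun y hy => ?_⟩
  rw [commutatorElement_def, ← eq _ (mul_mem (mul_mem hm (CN hy)) (inv_mem hm)) _ (CN hy),
    pf_conj hm (CN hy), pf_mul gN (SN hx), cj_eq_of_cs e (pf_mem CN hy)]

end H37.SR
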