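/- STD-R (S3323, blueprints/STDR.md), job LT: facts on `C(t)`. -/
import Cfsg.Agent.H37.SRSemi
import Cfsg.Agent.Rz.H65_SR_sU_eq_8
import Cfsg.Agent.Rz.H65_SR_wt_eq_8

set_option autoImplicit false
set_option linter.unusedSectionVars false

open Subgroup H63.Oc H64.SG H65.SR
open scoped commutatorElement

universe u v

namespace H37.SR

section Gen
variable {G : Type*} [Group G] {t a b g : G} {C N P Q X Y : Subgroup G}

theorem comm_t (ha : a ∈ Cz t) (hb : b ∈ Cz t) (h1 : a ∈ Y ∨ t * a ∈ Y) (h2 : b ∈ Y ∨ t * b ∈ Y) :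
    ⁅a, b⁆ ∈ ⁅Y, Y⁆ := by
  have l : ∀ {a b : G}, a ∈ Cz t → b ∈ Cz t → ⁅t * a, b⁆ = ⁅a, b⁆ := fun {a b} ha hb => by
    rw [comm_mul_left, comm_eq_one_iff.2 hb, mul_one, mul_inv_eq_iff_eq_mul]
    exact (mem_Cz.1 (mul_mem (mul_mem (mul_mem ha hb) (inv_mem ha)) (inv_mem hb))).symm
  have r : ∀ {a b : G}, a ∈ Cz t → b ∈ Cz t → ⁅a, t * b⁆ = ⁅a, b⁆ := fun {a b} ha hb => by
    rw [← commutatorElement_inv, l hb ha, commutatorElement_inv]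
  have tt : t ∈ Cz t := mem_Cz.2 rfl
  rcases h1 with h1 | h1 <;> rcases h2 with h2 | h2
  · exact commutator_mem_commutator h1 h2
  · exact r ha hb ▸ commutator_mem_commutator h1 h2
  · exact l ha hb ▸ commutator_mem_commutator h1 h2
  · exact r ha hb ▸ l ha (mul_mem tt hb) ▸ commutator_mem_commutator h1 h2

theorem comm_self_le (Y : Subgroup G) : ⁅Y, Y⁆ ≤ Y := commutator_le.2 fun _ ha _ hb =>
  mul_mem (mul_mem (mul_mem ha hb) (inv_mem ha)) (inv_mem hb)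

theorem Is2.cj (h : Is2 a) (g : G) : Is2 (g * a * g⁻¹) :=
  h.imp fun k e => by rw [conj_pow, e, mul_one, mul_inv_cancel]

theorem two_zp' (h : Is2 g) : IsPGroup 2 (zpowers g) :=
  have ⟨r, hr⟩ := h
  two_of_is2 fun y ⟨m, l⟩ => ⟨r, by
    rw [← l, ← zpow_natCast, ← zpow_mul, mul_comm, zpow_mul, zpow_natCast, hr, one_zpow]⟩

theorem mem_up' (hg : g ∈ Ns N) : a ∈ Up g N ↔ a ∈ Ns N ∧ ⁅g, a⁆ ∈ N := by
  refine and_congr_right fun _ => ?_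
  rw [mem_normalizer_iff.1 hg, ← N.inv_mem_iff]
  exact Iff.of_eq (congrArg (· ∈ N) (by rw [commutatorElement_def]; group))

variable [Finite G]

theorem exists_odd (g : G) : ∃ j : ℕ, Odd (orderOf (g ^ 2 ^ j)) := by
  obtain ⟨j, m, hm, e⟩ := Nat.exists_eq_two_pow_mul_odd (orderOf_pos g).ne'
  exact ⟨j, hm.of_dvd_nat (orderOf_dvd_of_pow_eq_one (by rw [← pow_mul, ← e, pow_orderOf_eq_one]))⟩

/-- a `2`-element has a fixed point on a section of a `2`-group -/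
theorem exists_fix2 (hX : IsPGroup 2 X) (h2 : Is2 g) (hg : g ∈ Ns X) (n : ¬ X ≤ N) :
    ∃ x ∈ X, x ∉ N ∧ ⁅g, x⁆ ∈ N := by
  haveI : Fact (Nat.Prime 2) := ⟨Nat.prime_two⟩
  by_contra! k
  obtain ⟨m, hm⟩ := (two_sup (two_zp' h2) hX (zpowers_le.2 hg)).isNilpotent.nilpotent
  have : ∀ m, ∀ x ∈ Subgroup.upperCentralSeries ↥(zpowers g ⊔ X) m, (x : G) ∈ X → (x : G) ∈ N := fun m => by
    induction m with
    | zero => exact fun x hx _ => by rw [mem_bot.1 hx]; exact one_mem _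
    | succ m ih =>
      refine fun x hx h => by_contra fun l => k x h l ?_
      rw [← commutatorElement_inv]
      exact inv_mem (ih _ (Subgroup.mem_upperCentralSeries_succ_iff.1 hx ⟨g, mem_sup_left (mem_zpowers g)⟩)
        (comm_mem_right hg h))
  exact n fun x hx => this m ⟨x, mem_sup_right hx⟩ (hm ▸ mem_top _) hx

theorem ns_J (hg : g ∈ Cm C Q) (gN : g ∈ Ns N) (hX : C ≤ Ns X) (hN : C ≤ Ns N) (XC : X ≤ C)
    (QC : Q ≤ C) (hQ : Q ≤ Cm X N) : C ≤ Ns (X ⊓ Up g N) := fun c hc => mem_ns_of fun x hx => by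
  have h1 := cj_mem (hX hc) hx.1
  refine ⟨h1, (mem_up' gN).2 ⟨hN (XC h1), ?_⟩⟩
  have e : ⁅g, c * x * c⁻¹⁆ = ⁅g, c⁆ * c * ⁅g, x⁆ * (⁅g, c⁆ * c)⁻¹ * ⁅⁅g, c⁆, c * x * c⁻¹⁆ := by
    simp only [commutatorElement_def]; group
  exact e ▸ mul_mem (cj_mem (hN (mul_mem (QC (hg.2 c hc)) hc)) ((mem_up' gN).1 hx.2).2)
    ((hQ (hg.2 c hc)).2 _ h1)

end Gen

section Main
variable {K : Type*} [Field K] [Fintype K] [CharP K 2] {T : TF K} {G : Type*} [Group G] [Finite G]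
  {A : AD T G} {t g : G}

theorem mem_S (lb : LB A) (hg : g ∈ A.C) (h2 : Is2 g) (hn : g ∈ Ns A.S) : g ∈ A.S := by
  obtain ⟨k, -, e⟩ := lb.bc.syl _ (sup_le (zpowers_le.2 hg) (S_le_C A))
    (two_sup (two_zp' h2) lb.twoU (zpowers_le.2 hn))
  have h1 : cjs k (zpowers g ⊔ A.S) ≤ A.S := fun _ ⟨x, hx, l⟩ => l ▸ e x hx
  exact (eq_of_le_of_card_ge le_sup_right (card_cjs.symm.trans_le (card_le_of_le h1))).ge
    (mem_sup_left (mem_zpowers g))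

theorem x4_eq (a : K) : x4 T a = ⁅x1 T 1, x6 T a⁆ := by
  ext <;> simp [commutatorElement_def] <;> grind

variable (cf : Cf A t) (la : LA A)
include cf la

theorem tL : t ∉ A.G0 := fun e => cf.inv.2 (mem_bot.1 (la.cen ▸ mem_inf.2 ⟨e, cf.cen⟩))

theorem nT (g : G) : g * t * g⁻¹ ∉ A.G0 := fun e => by
  obtain ⟨a, -, b, -, ha, hb, h2, k⟩ := la.com _ e ⟨by rw [conj_mul, cf.inv.1]; simp,
    fun n => cf.inv.2 (conj_eq_one_iff.1 n)⟩
  have c : ∀ x ∈ Cz (g * t * g⁻¹), g⁻¹ * x * g⁻¹⁻¹ ∈ Cz t := fun x hx => mem_Cz.2 (by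
    calc _ = g⁻¹ * (x * (g * t * g⁻¹)) * g := by group
      _ = _ := by rw [mem_Cz.1 hx]; group)
  have := comm_self_le _ (comm_t (c a ha) (c b hb)
    (cf.two _ (c a ha) (Is2.cj (is2_of_mem h2 (subset_closure (by simp))) _))
    (cf.two _ (c b hb) (Is2.cj (is2_of_mem h2 (subset_closure (by simp))) _)))
  rw [← conjugate_commutatorElement, ← k] at this
  exact tL cf la (by simpa [mul_assoc] using this)

theorem nsq (g y : G) : y * y ≠ g * t * g⁻¹ := fun e => by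
  have h1 : g⁻¹ * y * g * (g⁻¹ * y * g) = t := by
    calc _ = g⁻¹ * (y * y) * g := by group
      _ = t := by rw [e]; group
  generalize g⁻¹ * y * g = w at h1
  have h2 : w ∈ Cz t := mem_Cz.2 (by rw [← h1, mul_assoc])
  rcases cf.two w h2 ⟨2, by rw [show 2 ^ 2 = 2 * 2 from rfl, pow_mul, pow_two w, h1, pow_two,
    cf.inv.1]⟩ with k | k
  · exact tL cf la (h1 ▸ mul_mem k k)
  · refine tL cf la (Eq.subst (motive := (· ∈ A.G0)) ?_ (mul_mem k k))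
    rw [mul_assoc, ← mul_assoc w, mem_Cz.1 h2, ← mul_assoc, ← mul_assoc, cf.inv.1, one_mul, h1]

theorem twoC (hg : g ∈ Cz t) (hz : g ∈ Cs (A.im (sZ T))) (h2 : Is2 g) : g ∈ A.C ∨ t * g ∈ A.C := by
  have k : ∀ x ∈ Cs (A.im (sZ T)), x ∈ A.G0 → x ∈ A.C := fun x hx l =>
    (la.cz 1 one_ne_zero).le ⟨l, mem_Cz.2 (hx _ ⟨_, by simp, rfl⟩).symm⟩
  exact (cf.two g hg h2).imp (k _ hz) (k _ (mul_mem (cf.t_cs (im_le A _)) hz))

theorem nz : Up t (A.im (sZ T)) ≤ Ns A.C := fun n hn => by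
  have ct : ∀ x ∈ A.C, n * x * n⁻¹ ∈ Cz t := fun x hx => mem_Cz.2 (by
    have h1 := la.CZ hx _ (inv_mem hn).2
    have h2 := mem_Cz.1 (cf.Ct hx)
    calc _ = n * (x * t * (t⁻¹ * (n⁻¹ * t * n⁻¹⁻¹))) * n⁻¹ := by group
      _ = n * (t * (t⁻¹ * (n⁻¹ * t * n⁻¹⁻¹) * x)) * n⁻¹ := by rw [h2, h1, mul_assoc t]
      _ = _ := by group)
  have tn := cf.t_ns (C_le A)
  have h1 : cjs n A.C ≤ zpowers t ⊔ A.C := by
    rw [map_le_iff_le_comap]
    refine la.bc.gen.le.trans ((closure_le _).2 fun x hx => (mem_zp_sup cf.inv.1 tn).2 ?_)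
    have hC : x ∈ A.C := la.bc.gen.ge (subset_closure hx)
    refine twoC cf la (ct x hC) (cj_mem (ns_cs hn.1) (la.CZ hC)) (Is2.cj ?_ n)
    rcases hx with ⟨c, rfl⟩ | rfl
    exacts [is2_of_mem la.twoU ⟨c, rfl⟩, ⟨1, by rw [pow_one, pow_two, A.n8_sq]⟩]
  refine mem_ns_of fun y hy => (?_ : cjs n A.C ≤ A.C) (cj_mem_cjs hy)
  refine (congrArg (cjs n) la.perf).ge.trans ((map_commutator _ _ _).le.trans
    (commutator_le.2 ?_))
  rintro _ ⟨a, ha, rfl⟩ _ ⟨b, hb, rfl⟩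
  exact comm_self_le _ (comm_t (ct a ha) (ct b hb)
    ((mem_zp_sup cf.inv.1 tn).1 (h1 (cj_mem_cjs ha))) ((mem_zp_sup cf.inv.1 tn).1 (h1 (cj_mem_cjs hb))))

theorem key (hg : g ∈ Cz t) (hz : g ∈ Cs (A.im (sZ T))) (hw : g ∈ Cm (A.im (sW T)) (A.im (sZ T))) :
    g ∈ A.C ∨ t * g ∈ A.C := by
  have gC : g ∈ Ns A.C := la.cz 1 one_ne_zero ▸
    ns_inf (cf.nrm hg) (ns_cz' (hz _ ⟨_, by simp, rfl⟩).symm)
  have gW := ns_of_cm hw (im_mono A fun c hc => by simp_all)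
  have gS : ∀ c, g * A.ι c * g⁻¹ ∈ A.S := fun c => by
    have h1 := cj_mem gC (A.ι_mem c)
    have h2 : A.ι c ∈ Ns (A.im (sW T)) := im_ns A (X := ⊤) (fun c _ d hd => by
      simp_all; grind) ⟨c, trivial, rfl⟩
    obtain ⟨s, p, e⟩ := la.ty.nW _ h1 (x6 T 1) (by simp) (by simp)
      (cj_mem (mul_mem (mul_mem gW h2) (inv_mem gW)) ⟨_, by simp, rfl⟩)
    refine mem_S la.toLB h1 (Is2.cj (is2_of_mem la.twoU ⟨c, rfl⟩) g)
      (e ▸ mul_mem (le_normalizer ⟨s, rfl⟩) (mem_ns_of ?_))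
    rintro _ ⟨d, rfl⟩
    exact ⟨_, (A.h0_conj p d).symm⟩
  obtain ⟨k, hk⟩ := la.rig (A.C.normalizerMonoidHom ⟨g, gC⟩)
    (fun c => (gS c).imp fun d e => Subtype.ext e.symm)
    (fun a => Subtype.ext (cj_eq_of_cs hz ⟨_, by simp, rfl⟩)) fun a => by
      obtain ⟨d, hd, e⟩ := hw.2 _ ⟨x6 T a, by simp, rfl⟩
      refine ⟨d.a4, Subtype.ext ((cj_eq g _).trans ?_)⟩
      change ⁅g, A.ι _⁆ * A.ι _ = A.ι _
      rw [← e, ← map_mul]
      exact congrArg _ (by ext <;> simp_all [ww])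
  have h1 : g ^ 2 ^ k ∈ Cs A.C := fun y hy => by
    have := congrArg (fun θ : MulAut A.C => (θ ⟨y, hy⟩ : G)) ((map_pow _ _ _).trans hk)
    exact (mul_inv_eq_iff_eq_mul.1 this).symm
  obtain ⟨j, hj⟩ := exists_odd (g ^ 2 ^ k)
  have h2 := cf.cc ⟨pow_mem (pow_mem hg _) _, la.rigL _ (pow_mem (pow_mem (cf.nrm hg) _) _) hj
    (cs_anti (im_le_C A _) (pow_mem h1 _))⟩
  rw [sup_bot_eq] at h2
  obtain ⟨i, hi⟩ := is2_of_mem (two_zp cf.inv.1) h2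
  exact twoC cf la hg hz ⟨k + j + i, by rw [pow_add, pow_add, pow_mul, pow_mul, hi]⟩

theorem key' {X : Subgroup (Co T)} {Y : Subgroup G} (hX : sW T ≤ X) (h : A.C ⊓ Cs (A.im X) ≤ Y)
    (hg : g ∈ Cz t) (hc : g ∈ Cs (A.im X)) : g ∈ Y ∨ t * g ∈ Y :=
  have hw := cs_anti (im_mono A hX) hc
  have hz : g ∈ Cs (A.im (sZ T)) := cs_anti (im_mono A fun c hc => by simp_all) hw
  (key cf la hg hz (cm_of_cs (cs_le_ns hz) hw)).imp (fun k => h ⟨k, hc⟩)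
    fun k => h ⟨k, mul_mem (cf.t_cs (im_le A _)) hc⟩

omit cf in
theorem cA7 : A.C ⊓ Cs (A.im (sA7 T)) ≤ A.im (sA7 T) := fun g hg => by
  obtain ⟨c, h7, rfl⟩ := (la.ty.c7 g hg.1).1 (hg.2 _ ⟨_, by simp, rfl⟩).symm
  have h5 := (ι_mem_im A).1 ((la.ty.c5 _ hg.1).1 (hg.2 _ ⟨_, by simp, rfl⟩).symm)
  have h3 := (ι_mem_cs A).1 hg.2 (x3 T 1) (by simp)
  have e4 := congrArg Co.a4 h3
  have e6 := congrArg Co.a6 h3
  replace h7 := (mem_sT7 T).1 h7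
  replace h5 := (mem_sT5 T).1 h5
  refine (ι_mem_im A).2 ?_
  simp [h7, h5] at e4 e6 ⊢
  grind

omit cf in
theorem cQ1 : A.C ⊓ Cs (A.im (sQ1 T)) ≤ A.im (sW T) := fun g hg => by
  obtain ⟨c, h7, rfl⟩ := cA7 la ⟨hg.1, cs_anti (im_mono A fun c hc => by simp_all) hg.2⟩
  have h2 := (ι_mem_cs A).1 hg.2 (y2 T 1) (by simp)
  have h8 := (ι_mem_cs A).1 hg.2 (y8 T 1) (by simp)
  have h4 := (ι_mem_cs A).1 hg.2 (y4 T 1) (by simp)
  have e2 := congrArg Co.a4 h2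
  have e8 := congrArg Co.a5 h8
  have e4 := congrArg Co.a6 h4
  replace h7 := (mem_sA7 T).1 h7
  refine (ι_mem_im A).2 ?_
  simp [h7] at e2 e8 e4 ⊢
  grind

theorem mv2 : ∃ g ∈ N2 A t, g ∉ Cz t := by
  obtain ⟨g0, h2, -, hE, nt⟩ := cf.mv
  have tS := cf.t_ns (S_le A)
  have Et : zpowers t ⊔ A.S ≤ Cz t := sup_le (zpowers_le.2 (mem_Cz.2 rfl)) ((S_le A).trans cf.ct)
  have ZS : ∀ x ∈ A.S, x ∈ Cs (zpowers t ⊔ A.S) → x ∈ A.im (sZ T) := fun x hx k =>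
    la.zU.le ⟨S_le A hx, cs_anti le_sup_right k⟩
  have tE : t ∈ zpowers t ⊔ A.S := mem_sup_left (mem_zpowers t)
  have tc : t ∈ Cs (zpowers t ⊔ A.S) := fun y hy => mem_Cz.1 (Et hy)
  have up : g0 ∈ Up t (A.im (sZ T)) := by
    refine ⟨mem_ns_of ?_, (H65.SR.Inv2.inv_eq cf.inv).symm ▸ ZS _ (((mem_zp_sup cf.inv.1 tS).1
      (cj_mem hE tE)).resolve_left fun k => nT cf la g0 (S_le A k))
      (mul_mem tc (cj_mem (ns_cs hE) tc))⟩
    rintro _ ⟨c, hc, rfl⟩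
    refine ZS _ ?_ (cj_mem (ns_cs hE) (cs_sup (cs_symm (zpowers_le.2 (cf.t_cs (im_le A _))) ⟨c, hc, rfl⟩)
      (cs_symm ((S_le_C A).trans la.CZ) ⟨c, hc, rfl⟩)))
    have k : ∀ d, g0 * A.ι d * g0⁻¹ ∈ zpowers t ⊔ A.S := fun d => cj_mem hE (mem_sup_right ⟨d, rfl⟩)
    rw [eq_x4 hc, x4_eq, ← ι_comm, conjugate_commutatorElement]
    exact comm_self_le _ (comm_t (Et (k _)) (Et (k _)) ((mem_zp_sup cf.inv.1 tS).1 (k _))
      ((mem_zp_sup cf.inv.1 tS).1 (k _)))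
  have gC := nz cf la up
  have gS : g0 ∈ Ns A.S := mem_ns_of fun y hy => ((mem_zp_sup cf.inv.1 tS).1
    (cj_mem hE (mem_sup_right hy))).resolve_right fun k => tL cf la
      ((mul_mem_cancel_right (C_le A (cj_mem gC (S_le_C A hy)))).1 (S_le A k))
  obtain ⟨u, hu, hg⟩ := la.semi g0 gC gS h2
  have ut := cf.ct (S_le A hu)
  have g2 : Is2 (g0 * u) := is2_of_mem (two_sup (two_zp' h2) la.twoU (zpowers_le.2 gS))
    (mul_mem (mem_sup_left (mem_zpowers _)) (mem_sup_right hu))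
  have up' : g0 * u ∈ Up t (A.im (sZ T)) := mul_mem up ((mem_up cf.inv).2
    ⟨la.CN (by simp) (S_le_C A hu), comm_eq_one_iff.2 ut ▸ one_mem _⟩)
  have nt' : g0 * u ∉ Cz t := fun k => nt ((mul_mem_cancel_right ut).1 k)
  generalize g0 * u = g at hg g2 up' nt'
  have nn := fun X hX => nC la.bc (nz cf la up') (X := X) hX
  have nZ := nn (sZ T) (by simp)
  have nV := nn (sV T) (by simp)
  have nR := nn (sR T) (by simp)
  have CZ := la.CN (X := sZ T) (by simp)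
  have CV := la.CN (X := sV T) (by simp)
  have CR := la.CN (X := sR T) (by simp)
  have CQ := la.CN (X := sQ T) (by simp)
  have VR : A.im (sV T) ≤ A.im (sR T) := im_mono A fun c hc => by simp_all
  have VQ : A.im (sV T) ≤ A.im (sQ T) := im_mono A fun c hc => by simp_all
  have QV : A.im (sQ T) ≤ Cm (A.im (sQ T)) (A.im (sV T)) := fun x hx => ⟨CV (im_le_C A _ hx), by
    obtain ⟨c, hc, rfl⟩ := hx
    rintro _ ⟨d, hd, rfl⟩
    replace hc := (mem_sQ T).1 hc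
    replace hd := (mem_sQ T).1 hd
    rw [ι_comm, ι_mem_im]
    simp [commutatorElement_def, hc, hd]
    grind⟩
  have irr : ∀ N : Subgroup G, A.im (sV T) ≤ N → g ∈ Ns N → A.C ≤ Ns N →
      (∃ x ∈ A.im (sQ T), x ∉ A.im (sR T) ∧ ⁅g, x⁆ ∈ N) → g ∈ Cm (A.im (sQ T)) N :=
    fun N h1 h2 h3 ⟨x, hx, n, k⟩ => ⟨h2, fun y hy => ((mem_up' h2).1 ((((la.irr (_ ⊓ Up g N)
      (le_inf VQ fun v hv => (mem_up' h2).2 ⟨h3 (im_le_C A _ hv), h1 (comm_mem_left nV hv)⟩)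
      inf_le_left (ns_J hg h2 CQ h3 (im_le_C A _) (im_le_C A _) fun q hq =>
        ⟨h3 (im_le_C A _ hq), fun y hy => h1 ((QV hq).2 y hy)⟩)).resolve_left fun l =>
      n (l ⟨hx, (mem_up' h2).2 ⟨h3 (im_le_C A _ hx), k⟩⟩)).ge hy).2)).2⟩
  have sA := irr _ VR nR CR (exists_fix2 (la.two_im _) g2 hg.1 fun l => by
    simpa using (ι_mem_im A).1 (l ⟨x1 T 1, by simp, rfl⟩))
  have sB : g ∈ Cm (A.im (sV T)) (A.im (sZ T)) := by
    obtain ⟨x, hx, n, k⟩ := exists_fix2 (N := A.im (sZ T)) (la.two_im _) g2 nV fun l => by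
      simpa using (ι_mem_im A).1 (l ⟨x2 T 1, by simp, rfl⟩)
    exact ⟨nZ, fun y hy => ((mem_up' nZ).1 (la.bc.nsub (_ ⊓ Up g _) (inf_le_left.trans (im_le_C A _))
      (ns_J hg nZ CV CZ (im_le_C A _) (im_le_C A _) (la.cVZ.ge.trans inf_le_right))
      (fun l => n (l ⟨hx, (mem_up' nZ).2 ⟨CZ (im_le_C A _ hx), k⟩⟩)) hy).2).2⟩
  have sC : g ∈ Cs (A.im (sZ T)) := by
    rintro _ ⟨c, hc, rfl⟩
    obtain ⟨r, hr, e1⟩ := sA.2 _ ⟨x1 T 1, by simp, rfl⟩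
    obtain ⟨d, hd, e2⟩ := sB.2 _ ⟨x6 T c.a4, by simp, rfl⟩
    replace hr := (mem_sR T).1 hr
    replace hd := (mem_sZ T).1 hd
    refine (mul_inv_eq_iff_eq_mul.1 ?_).symm
    rw [eq_x4 hc]
    nth_rw 1 [x4_eq]
    rw [← ι_comm, conjugate_commutatorElement, cj_eq, cj_eq g, ← e1, ← e2, ← map_mul, ← map_mul,
      ι_comm]
    refine congrArg _ ?_
    ext <;> simp [commutatorElement_def, hr, hd] <;> grind
  have sD := irr _ le_rfl nV CV (by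
    obtain ⟨h, hh, n⟩ := la.exT 4
    have hc := la.T4C hh
    have n7 : A.ι (x7 T 1) ∉ Cz h := fun l => by
      simpa [sU] using (ι_mem_im A).1 ((la.cU 4 h hh n).le ⟨⟨_, rfl⟩, l⟩)
    obtain ⟨p, hp, rfl⟩ := (la.mem_TT 4 h).1 hh
    obtain ⟨r, hr, e1⟩ := sA.2 _ ⟨x7 T 1, by simp, rfl⟩
    obtain ⟨q, hq, e2⟩ := hg.2 _ hc
    replace hr := (mem_sR T).1 hr
    replace hq := (mem_sQ T).1 hq
    have e3 : ⁅A.h p, A.ι (x7 T 1)⁆ = A.ι (dg T p.1 p.2 (x7 T 1) * (x7 T 1)⁻¹) := by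
      rw [commutatorElement_def, A.tor.h_conj, map_mul, map_inv]
    refine ⟨⁅A.h p, A.ι (x7 T 1)⁆, comm_mem_left (CQ hc) ⟨_, by simp, rfl⟩, fun l => n7 ?_, ?_⟩
    · rw [e3, ι_mem_im] at l
      rw [← comm_eq_one_iff, e3, ι_eq_one]
      ext <;> simp_all
    · have e4 : g * ⁅A.h p, A.ι (x7 T 1)⁆ * g⁻¹ =
          A.ι (q * dg T p.1 p.2 (r * x7 T 1) * q⁻¹ * (r * x7 T 1)⁻¹) := by
        rw [conjugate_commutatorElement, cj_eq, cj_eq g, ← e1, ← e2, map_mul, map_mul, map_mul,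
          map_inv, map_inv, ← A.tor.h_conj, ← map_mul, commutatorElement_def]
        group
      rw [commutatorElement_def g, e4, e3, ← map_inv, ← map_mul, ι_mem_im]
      simp only [wt] at hp
      simp [hr, hq, hp]
      grind)
  exact ⟨g, ⟨⟨⟨⟨hg, sD⟩, sB⟩, sC⟩, up'⟩, nt'⟩

end Main

theorem jobLT : JobLT.{u, v} := fun _ K _ _ _ T G _ _ A t cf la =>
  { nT := nT cf la
    nsq := nsq cf la
    nz := nz cf la
    nC := fun _ hX _ hg => nC la.bc hg hX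
    cl := fun _ => key' cf la le_rfl fun g hg =>
      (la.ty.c6 g hg.1).1 (hg.2 _ ⟨_, by simp, rfl⟩).symm
    cvz := fun _ hg h1 h2 => (key cf la hg h2
      (cm_anti (im_mono A fun c hc => by simp_all) h1)).imp (fun k => la.cVZ.le ⟨k, h1⟩)
        fun k => la.cVZ.le ⟨k, mul_mem (cm_of_cs (cf.t_ns (im_le A _)) (cf.t_cs (im_le A _))) h1⟩
    cR := fun _ => key' cf la (fun c hc => by simp_all) fun g hg => la.cQR.le
      ⟨im_mono A (fun c hc => by simp_all) (la.cCV.le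
        ⟨hg.1, cs_anti (im_mono A fun c hc => by simp_all) hg.2⟩), hg.2⟩
    cA7 := fun _ => key' cf la (fun c hc => by simp_all) (cA7 la)
    cQ1 := fun _ => key' cf la (fun c hc => by simp_all) (cQ1 la)
    cQ := fun _ => key' cf la (fun c hc => by simp_all) fun g hg =>
      la.bc.cenQ g hg.1 fun c hc => (hg.2 _ ⟨c, hc, rfl⟩).symm
    mv2 := mv2 cf la }

end H37.SR
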